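import Mathlib

/-! Product action of `S_m ≀ S_k` on functions: basic definitions. -/

namespace Cfsg.Lib.PA
open Equiv Equiv.Perm Function

variable {ι Λ : Type*} [DecidableEq ι]

/-- A permutation of the letters acting in coordinate `i`. -/
def co (i : ι) : Perm Λ →* Perm (ι → Λ) where
  toFun ρ :=
    { toFun := fun γ => update γ i (ρ (γ i))
      invFun := fun γ => update γ i (ρ⁻¹ (γ i))
      left_inv := fun γ => by simp
      right_inv := fun γ => by simp }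
  map_one' := by ext γ j; simp
  map_mul' ρ σ := by ext γ j; simp

theorem co_apply (i : ι) (ρ : Perm Λ) (γ : ι → Λ) : co i ρ γ = update γ i (ρ (γ i)) := rfl

@[simp] theorem co_same (i : ι) (ρ : Perm Λ) (γ : ι → Λ) : co i ρ γ i = ρ (γ i) := by
  simp [co_apply]

theorem co_ne {i j : ι} (h : j ≠ i) (ρ : Perm Λ) (γ : ι → Λ) : co i ρ γ j = γ j := by
  simp [co_apply, h]

theorem co_fix {i : ι} {ρ : Perm Λ} {γ : ι → Λ} : co i ρ γ = γ ↔ ρ (γ i) = γ i := by
  constructor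
  · intro h; rw [← co_same, h]
  · intro h; rw [co_apply, h, update_eq_self]

theorem co_inv_same (i : ι) (ρ : Perm Λ) (γ : ι → Λ) : (co i ρ)⁻¹ γ i = ρ⁻¹ (γ i) := by
  rw [← map_inv, co_same]

theorem co_inv_ne {i j : ι} (h : j ≠ i) (ρ : Perm Λ) (γ : ι → Λ) : (co i ρ)⁻¹ γ j = γ j := by
  rw [← map_inv, co_ne h]

theorem co_comm {i j : ι} (h : i ≠ j) (ρ σ : Perm Λ) : co i ρ * co j σ = co j σ * co i ρ := by
  ext γ l
  simp only [Perm.mul_apply]
  by_cases h1 : l = i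
  · subst h1; rw [co_same, co_ne h, co_ne h, co_same]
  · by_cases h2 : l = j
    · subst h2; rw [co_ne h1, co_same, co_same, co_ne h1]
    · rw [co_ne h1, co_ne h2, co_ne h2, co_ne h1]

theorem co_inj (i : ι) : Injective (co i : Perm Λ → Perm (ι → Λ)) := by
  intro ρ σ h
  ext a
  have := congrArg (fun g : Perm (ι → Λ) => g (fun _ => a) i) h
  simpa using this

/-- `g` is the wreath element with top `π` and components `τ`. -/
def Wr (g : Perm (ι → Λ)) (π : Perm ι) (τ : ι → Perm Λ) : Prop :=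
  ∀ f i, g f i = τ i (f (π.symm i))

omit [DecidableEq ι] in
theorem Wr.mul {g h : Perm (ι → Λ)} {π π' : Perm ι} {τ τ' : ι → Perm Λ} (h1 : Wr g π τ)
    (h2 : Wr h π' τ') : Wr (g * h) (π * π') (fun i => τ i * τ' (π.symm i)) := by
  intro f i
  rw [Perm.mul_apply, h1, h2]
  rfl

omit [DecidableEq ι] in
theorem Wr.inv {g : Perm (ι → Λ)} {π : Perm ι} {τ : ι → Perm Λ} (h1 : Wr g π τ) :
    Wr g⁻¹ π⁻¹ (fun i => (τ (π i))⁻¹) := by
  intro f i
  have := h1 (g⁻¹ f) (π i)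
  rw [symm_apply_apply, ← Perm.mul_apply, mul_inv_cancel, Perm.one_apply] at this
  change _ = (τ (π i))⁻¹ (f (π i))
  rw [this]; simp

omit [DecidableEq ι] in
theorem Wr.apply {g : Perm (ι → Λ)} {π : Perm ι} {τ : ι → Perm Λ} (h1 : Wr g π τ) (f : ι → Λ)
    (i : ι) : g f (π i) = τ (π i) (f i) := by
  rw [h1, symm_apply_apply]

omit [DecidableEq ι] in
@[simp] theorem one_symm_apply (i : ι) : (1 : Perm ι).symm i = i := rfl

theorem wr_co (i : ι) (ρ : Perm Λ) : Wr (co i ρ) 1 (update 1 i ρ) := by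
  intro f j
  by_cases h : j = i
  · subst h; simp
  · rw [co_ne h]; simp [h]

variable (ι Λ) in
/-- The wreath product in product action. -/
def W : Subgroup (Perm (ι → Λ)) where
  carrier := {g | ∃ π τ, Wr g π τ}
  one_mem' := ⟨1, 1, fun _ _ => rfl⟩
  mul_mem' := fun ⟨_, _, h1⟩ ⟨_, _, h2⟩ => ⟨_, _, h1.mul h2⟩
  inv_mem' := fun ⟨_, _, h1⟩ => ⟨_, _, h1.inv⟩

omit [DecidableEq ι] in
theorem mem_W {g : Perm (ι → Λ)} : g ∈ W ι Λ ↔ ∃ π τ, Wr g π τ := Iff.rfl

theorem co_mem_W (i : ι) (ρ : Perm Λ) : co i ρ ∈ W ι Λ := ⟨_, _, wr_co i ρ⟩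

theorem Wr.update {g : Perm (ι → Λ)} {π : Perm ι} {τ : ι → Perm Λ} (h1 : Wr g π τ) (f : ι → Λ)
    (j : ι) (p : Λ) : g (update f j p) = update (g f) (π j) (τ (π j) p) := by
  funext l
  by_cases h : l = π j
  · subst h; rw [h1.apply]; simp
  · have h' : π.symm l ≠ j := fun e => h (by rw [← e, apply_symm_apply])
    rw [h1, update_of_ne h', update_of_ne h, h1]

theorem Wr.conj {g : Perm (ι → Λ)} {π : Perm ι} {τ : ι → Perm Λ} (h1 : Wr g π τ) (j : ι)
    (ρ : Perm Λ) : g * co j ρ * g⁻¹ = co (π j) (τ (π j) * ρ * (τ (π j))⁻¹) := by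
  rw [mul_inv_eq_iff_eq_mul]
  ext1 f
  rw [Perm.mul_apply, Perm.mul_apply, co_apply, co_apply, h1.update, h1.apply]
  simp

/-- The pure coordinate permutation. -/
def tp (π : Perm ι) : Perm (ι → Λ) := Equiv.arrowCongr π (Equiv.refl Λ)

omit [DecidableEq ι] in
theorem wr_tp (π : Perm ι) : Wr (tp π : Perm (ι → Λ)) π 1 := fun _ _ => rfl

/-- Connectivity by single-coordinate changes. -/
theorem conn [Fintype ι] {P : (ι → Λ) → Prop} (S : ι → Prop)
    (h : ∀ δ l q, S l → P δ → P (update δ l q)) {γ δ : ι → Λ} (hγ : P γ)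
    (hS : ∀ l, ¬ S l → δ l = γ l) : P δ := by
  classical
  have key : ∀ T : Finset ι, P (fun l => if l ∈ T then δ l else γ l) := by
    intro T
    induction T using Finset.induction_on with
    | empty => simpa using hγ
    | insert a T ha ih =>
      by_cases hs : S a
      · have := h _ a (δ a) hs ih
        convert this using 1
        funext l
        by_cases e : l = a
        · subst e; simp
        · simp [e]
      · convert ih using 1
        funext l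
        by_cases e : l = a
        · subst e; simp [ha, hS l hs]
        · simp [e]
  simpa using key Finset.univ

/-! ### Letters -/

section letters
variable [Fintype Λ] [DecidableEq Λ]

theorem exists_new (s : Finset Λ) (h : s.card < Fintype.card Λ) : ∃ e, e ∉ s := by
  by_contra hc
  push Not at hc
  have : s = Finset.univ := Finset.eq_univ_of_forall hc
  rw [this, Finset.card_univ] at h
  exact lt_irrefl _ h

theorem exists_ne4 (h5 : 5 ≤ Fintype.card Λ) (a b c d : Λ) :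
    ∃ e, e ≠ a ∧ e ≠ b ∧ e ≠ c ∧ e ≠ d := by
  obtain ⟨e, he⟩ := exists_new {a, b, c, d} (lt_of_le_of_lt Finset.card_le_four (by omega))
  simp only [Finset.mem_insert, Finset.mem_singleton, not_or] at he
  exact ⟨e, he⟩

/-- The three-cycle `a ↦ b ↦ c ↦ a`. -/
def c3 (a b c : Λ) : Perm Λ := swap a c * swap a b

omit [Fintype Λ] in
theorem c3_a {a b c : Λ} (h1 : a ≠ b) (h3 : b ≠ c) : c3 a b c a = b := by
  simp [c3, swap_apply_of_ne_of_ne h1.symm h3]

omit [Fintype Λ] in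
theorem c3_b (a b c : Λ) : c3 a b c b = c := by
  simp [c3]

omit [Fintype Λ] in
theorem c3_c {a b c : Λ} (h2 : a ≠ c) (h3 : b ≠ c) : c3 a b c c = a := by
  simp [c3, swap_apply_of_ne_of_ne h2.symm h3.symm]

omit [Fintype Λ] in
theorem c3_ne {a b c x : Λ} (h1 : x ≠ a) (h2 : x ≠ b) (h3 : x ≠ c) : c3 a b c x = x := by
  simp [c3, swap_apply_of_ne_of_ne h1 h2, swap_apply_of_ne_of_ne h1 h3]

theorem c3_three {a b c : Λ} (h1 : a ≠ b) (h2 : a ≠ c) (h3 : b ≠ c) : (c3 a b c).IsThreeCycle :=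
  isThreeCycle_swap_mul_swap_same h2 h1 h3.symm

/-- A three-cycle with `a ↦ b` fixing two further letters. -/
theorem exists_c3 (h5 : 5 ≤ Fintype.card Λ) {a b x y : Λ} (hab : a ≠ b) (h1 : x ≠ a) (h2 : x ≠ b)
    (h3 : y ≠ a) (h4 : y ≠ b) : ∃ ρ : Perm Λ, ρ.IsThreeCycle ∧ ρ a = b ∧ ρ x = x ∧ ρ y = y := by
  obtain ⟨e, e1, e2, e3, e4⟩ := exists_ne4 h5 a b x y
  exact ⟨c3 a b e, c3_three hab e1.symm e2.symm, c3_a hab e2.symm, c3_ne h1 h2 e3.symm,
    c3_ne h3 h4 e4.symm⟩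

/-- A three-cycle moving `a` and fixing two further letters. -/
theorem exists_c3' (h5 : 5 ≤ Fintype.card Λ) {a x y : Λ} (h1 : x ≠ a) (h3 : y ≠ a) :
    ∃ ρ : Perm Λ, ρ.IsThreeCycle ∧ ρ a ≠ a ∧ ρ x = x ∧ ρ y = y := by
  obtain ⟨b, b1, b2, b3, -⟩ := exists_ne4 h5 a x y y
  obtain ⟨ρ, r1, r2, r3, r4⟩ := exists_c3 h5 b1.symm h1 b2.symm h3 b3.symm
  exact ⟨ρ, r1, r2 ▸ b1, r3, r4⟩

/-- A three-cycle fixing two letters. -/
theorem exists_c3'' (h5 : 5 ≤ Fintype.card Λ) (x y : Λ) :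
    ∃ ρ : Perm Λ, ρ.IsThreeCycle ∧ ρ x = x ∧ ρ y = y := by
  obtain ⟨a, a1, a2, -, -⟩ := exists_ne4 h5 x y y y
  obtain ⟨ρ, r1, -, r3, r4⟩ := exists_c3' h5 a1.symm a2.symm
  exact ⟨ρ, r1, r3, r4⟩

/-- An even permutation with `a ↦ b` fixing a further letter. -/
theorem exists_even (h5 : 5 ≤ Fintype.card Λ) {a b x : Λ} (h1 : x ≠ a) (h2 : x ≠ b) :
    ∃ ρ ∈ alternatingGroup Λ, ρ a = b ∧ ρ x = x := by
  by_cases hab : a = b
  · exact ⟨1, one_mem _, hab, rfl⟩
  · obtain ⟨ρ, r1, r2, r3, -⟩ := exists_c3 h5 hab h1 h2 h1 h2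
    exact ⟨ρ, r1.mem_alternatingGroup, r2, r3⟩

theorem exists_even' (h5 : 5 ≤ Fintype.card Λ) (a b : Λ) :
    ∃ ρ ∈ alternatingGroup Λ, ρ a = b := by
  obtain ⟨x, x1, x2, -, -⟩ := exists_ne4 h5 a b b b
  obtain ⟨ρ, r1, r2, -⟩ := exists_even h5 x1 x2
  exact ⟨ρ, r1, r2⟩

end letters

/-! ### Splitting off a coordinate -/

/-- Restriction to the coordinates other than `i`. -/
def res (i : ι) (γ : ι → Λ) : {j // j ≠ i} → Λ := fun j => γ j

/-- Extension by the letter `a` at coordinate `i`. -/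
def ext (i : ι) (a : Λ) (z : {j // j ≠ i} → Λ) : ι → Λ :=
  fun j => if h : j = i then a else z ⟨j, h⟩

@[simp] theorem ext_same (i : ι) (a : Λ) (z : {j // j ≠ i} → Λ) : ext i a z i = a := by
  simp [ext]

@[simp] theorem res_ext (i : ι) (a : Λ) (z : {j // j ≠ i} → Λ) : res i (ext i a z) = z := by
  funext j; simp [res, ext, j.2]

omit [DecidableEq ι] in
theorem res_eq_iff {i : ι} {γ δ : ι → Λ} : res i γ = res i δ ↔ ∀ j, j ≠ i → γ j = δ j :=
  ⟨fun h j hj => congrFun h ⟨j, hj⟩, fun h => funext fun j => h j j.2⟩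

omit [DecidableEq ι] in
theorem eq_of_res {i : ι} {γ δ : ι → Λ} (h : res i γ = res i δ) (h' : γ i = δ i) : γ = δ := by
  funext j
  by_cases e : j = i
  · rw [e, h']
  · exact res_eq_iff.1 h j e

theorem res_co_same (i : ι) (ρ : Perm Λ) (γ : ι → Λ) : res i (co i ρ γ) = res i γ :=
  res_eq_iff.2 fun _ hj => co_ne hj _ _

theorem res_co {i j : ι} (h : j ≠ i) (ρ : Perm Λ) (γ : ι → Λ) :
    res i (co j ρ γ) = co (⟨j, h⟩ : {j // j ≠ i}) ρ (res i γ) := by
  funext l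
  by_cases e : l = ⟨j, h⟩
  · subst e; rw [co_same]; exact co_same j ρ γ
  · rw [co_ne e]; exact co_ne (fun e' => e (Subtype.ext e')) _ _

section count
variable [Fintype ι] [Fintype Λ] [DecidableEq Λ]

omit [DecidableEq Λ] in
theorem card_Z (i : ι) :
    Fintype.card ({j // j ≠ i} → Λ) = Fintype.card Λ ^ (Fintype.card ι - 1) := by
  rw [Fintype.card_fun, Fintype.card_subtype_compl, Fintype.card_subtype_eq]

theorem card_layers (i : ι) (S : Finset Λ) :
    (Finset.univ.filter fun γ : ι → Λ => γ i ∈ S).card =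
      S.card * Fintype.card Λ ^ (Fintype.card ι - 1) := by
  rw [← card_Z i, ← Finset.card_univ, ← Finset.card_product]
  refine Finset.card_bij' (fun γ _ => (γ i, res i γ)) (fun p _ => ext i p.1 p.2) ?_ ?_ ?_ ?_
  · intro γ h; simpa using h
  · intro p h; simpa using h
  · intro γ _; exact eq_of_res (res_ext _ _ _) (ext_same _ _ _)
  · intro p _; simp

omit [DecidableEq Λ] in
theorem card_om (i : ι) :
    Fintype.card (ι → Λ) = Fintype.card Λ * Fintype.card Λ ^ (Fintype.card ι - 1) := by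
  have : 0 < Fintype.card ι := Fintype.card_pos_iff.2 ⟨i⟩
  rw [Fintype.card_fun, ← pow_succ']
  congr 1; omega

theorem support_co (i : ι) (ρ : Perm Λ) :
    (co i ρ).support = Finset.univ.filter fun γ : ι → Λ => γ i ∈ ρ.support := by
  ext γ; simp [co_fix]

theorem card_support_co (i : ι) (ρ : Perm Λ) :
    (co i ρ).support.card = ρ.support.card * Fintype.card Λ ^ (Fintype.card ι - 1) := by
  rw [support_co, card_layers]

end count

/-- The standing hypothesis on the overgroup. -/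
structure Hyp [Fintype Λ] [DecidableEq Λ] (G : Subgroup (Perm (ι → Λ))) : Prop where
  h5 : 5 ≤ Fintype.card Λ
  even : ∀ i, ∀ ρ ∈ alternatingGroup Λ, co i ρ ∈ G
  top : ∀ π, ∃ g ∈ G, ∃ τ, Wr g π τ
  six : Fintype.card Λ = 6 → ∀ i ρ, co i ρ ∈ G

theorem Hyp.top' [Fintype Λ] [DecidableEq Λ] {G : Subgroup (Perm (ι → Λ))} (h : Hyp G)
    (π : Perm ι) (i : ι) {c d : Λ} (hcd : c ≠ d) :
    ∃ g ∈ G, ∃ τ, Wr g π τ ∧ (τ i = 1 ∨ τ i = swap c d) := by
  obtain ⟨g, hg, τ, hw⟩ := h.top π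
  rcases Int.units_eq_one_or (sign (τ i)) with hs | hs
  · refine ⟨co i (τ i)⁻¹ * g, G.mul_mem (h.even _ _ (by simp [mem_alternatingGroup, hs])) hg, _,
      by simpa using (wr_co i (τ i)⁻¹).mul hw, Or.inl (by simp)⟩
  · refine ⟨co i (swap c d * (τ i)⁻¹) * g, G.mul_mem (h.even _ _ (by
      simp [mem_alternatingGroup, hs, hcd])) hg, _,
      by simpa using (wr_co i (swap c d * (τ i)⁻¹)).mul hw, Or.inr (by simp)⟩

end Cfsg.Lib.PA
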