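import Cfsg.Agent.Lib.PA.Basic
import Cfsg.Agent.Lib.Perm.Sym2

/-! Automorphisms of the Hamming graph; elements of small support in the wreath product. -/

namespace Cfsg.Lib.PA
open Equiv Equiv.Perm Function

variable {ι Λ : Type*}

/-- `γ` and `δ` differ exactly in coordinate `j`. -/
def Dir (j : ι) (γ δ : ι → Λ) : Prop := γ j ≠ δ j ∧ ∀ l, l ≠ j → γ l = δ l

/-- Adjacency in the Hamming graph. -/
def Adj (γ δ : ι → Λ) : Prop := ∃ j, Dir j γ δ

theorem Dir.symm {j : ι} {a b : ι → Λ} (h : Dir j a b) : Dir j b a :=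
  ⟨h.1.symm, fun l hl => (h.2 l hl).symm⟩

theorem Dir.eq_of_ne {j l : ι} {a b : ι → Λ} (h : Dir j a b) (hl : a l ≠ b l) : l = j := by
  by_contra e; exact hl (h.2 l e)

theorem Dir.tri {j l : ι} {a b c : ι → Λ} (h1 : Dir j a b) (h2 : Dir l a c) (h3 : Adj b c) :
    j = l := by
  by_contra e
  obtain ⟨t, ht⟩ := h3
  have a1 := ht.eq_of_ne (l := j) (by rw [← h2.2 j e]; exact h1.1.symm)
  have a2 := ht.eq_of_ne (l := l) (by rw [← h1.2 l (Ne.symm e)]; exact h2.1)
  exact e (a1.trans a2.symm)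

variable [DecidableEq ι]

theorem dir_update (γ : ι → Λ) (j : ι) {p : Λ} (h : p ≠ γ j) : Dir j γ (update γ j p) :=
  ⟨by simpa using h.symm, fun l hl => by rw [update_of_ne hl]⟩

theorem Dir.eq_update {j : ι} {a b : ι → Λ} (h : Dir j a b) : b = update a j (b j) := by
  funext l
  by_cases e : l = j
  · subst e; simp
  · rw [update_of_ne e, h.2 l e]

theorem adj_co {j : ι} {ρ : Perm Λ} {γ : ι → Λ} (h : co j ρ γ ≠ γ) : Adj γ (co j ρ γ) :=
  ⟨j, dir_update γ j fun e => h (co_fix.2 e)⟩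

theorem Wr.adj {g : Perm (ι → Λ)} {π : Perm ι} {τ : ι → Perm Λ} (h : Wr g π τ) {γ δ : ι → Λ}
    (ha : Adj γ δ) : Adj (g γ) (g δ) := by
  obtain ⟨j, hj⟩ := ha
  rw [hj.eq_update, h.update]
  exact ⟨_, dir_update _ _ (by rw [h.apply]; exact fun e => hj.1 ((τ _).injective e).symm)⟩

variable [Fintype ι] [Fintype Λ] [DecidableEq Λ]

theorem mem_W_of_adj (h5 : 5 ≤ Fintype.card Λ) {g : Perm (ι → Λ)}
    (h1 : ∀ γ δ, Adj γ δ → Adj (g γ) (g δ)) (h2 : ∀ γ δ, Adj (g γ) (g δ) → Adj γ δ) :
    g ∈ W ι Λ := by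
  obtain ⟨a0⟩ : Nonempty Λ := Fintype.card_pos_iff.1 (by omega)
  let D : (ι → Λ) → ι → ι → Prop := fun γ i d => ∀ q, q ≠ γ i → Dir d (g γ) (g (update γ i q))
  have ex : ∀ γ i, ∃ d, D γ i d := by
    intro γ i
    obtain ⟨p, hp, -⟩ := exists_ne4 h5 (γ i) a0 a0 a0
    obtain ⟨d, hd⟩ := h1 _ _ ⟨i, dir_update γ i hp⟩
    refine ⟨d, fun q hq => ?_⟩
    by_cases e : q = p
    · rwa [e]
    obtain ⟨d', hd'⟩ := h1 _ _ ⟨i, dir_update γ i hq⟩
    have := hd.tri hd' (h1 _ _ ⟨i, by
      simpa using dir_update (update γ i p) i (p := q) (by simpa using e)⟩)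
    rwa [this]
  have ne : ∀ γ i l d, i ≠ l → D γ i d → ¬ D γ l d := by
    intro γ i l d hil a1 a2
    obtain ⟨p, hp, -⟩ := exists_ne4 h5 (γ i) a0 a0 a0
    obtain ⟨q, hq, -⟩ := exists_ne4 h5 (γ l) a0 a0 a0
    have b1 := a1 p hp
    have b2 := a2 q hq
    refine hil ((dir_update γ i hp).tri (dir_update γ l hq) (h2 _ _ ⟨d, fun e => ?_,
      fun t ht => (b1.2 t ht).symm.trans (b2.2 t ht)⟩))
    have : g (update γ i p) = g (update γ l q) := by
      rw [b1.eq_update, b2.eq_update, e]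
    have := congrFun (g.injective this) i
    rw [update_self, update_of_ne hil] at this
    exact hp this
  have st : ∀ γ i d l q, D γ i d → D (update γ l q) i d := by
    intro γ i d l q a1
    by_cases hq : q = γ l
    · rwa [hq, update_eq_self]
    obtain ⟨e, he⟩ := ex (update γ l q) i
    suffices e = d by rwa [← this]
    by_cases hl : l = i
    · subst hl
      have := he (γ l) (by simpa using Ne.symm hq)
      rw [update_idem, update_eq_self] at this
      exact (a1 q hq).eq_of_ne this.1.symm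
    obtain ⟨p, hp, -⟩ := exists_ne4 h5 (γ i) a0 a0 a0
    obtain ⟨d', hd'⟩ := ex γ l
    have dd : d ≠ d' := fun x => ne γ i l d (Ne.symm hl) a1 (x ▸ hd')
    have b1 := a1 p hp
    have b2 := hd' q hq
    have b3 := he p (by rwa [update_of_ne (Ne.symm hl)])
    obtain ⟨f, b4⟩ := h1 _ _ ⟨l, dir_update (update γ i p) l (p := q) (by rwa [update_of_ne hl])⟩
    rw [update_comm (Ne.symm hl)] at b4
    by_contra hed
    have c1 := b3.2 d (Ne.symm hed)
    have c2 := b2.2 d dd
    have c3 : d = f := b4.eq_of_ne (by rw [← c1, ← c2]; exact b1.1.symm)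
    subst c3
    have : g (update (update γ l q) i p) = g γ := by
      funext t
      by_cases ht : t = d
      · rw [ht, ← c1, c2]
      · rw [← b4.2 t ht, b1.2 t ht]
    have := congrFun (g.injective this) i
    rw [update_self] at this
    exact hp this
  choose π hπ using ex (fun _ => a0)
  have all : ∀ γ i, D γ i (π i) := fun γ i =>
    conn (P := fun γ => D γ i (π i)) (fun _ => True) (fun δ l q _ h => st δ i _ l q h)
      (γ := fun _ => a0) (hπ i) (by simp)
  have inj : Injective π := fun i l e => by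
    by_contra hil
    exact ne (fun _ => a0) i l (π i) hil (hπ i) (by rw [e]; exact hπ l)
  have key : ∀ i (γ δ : ι → Λ), δ i = γ i → g δ (π i) = g γ (π i) := by
    intro i γ δ hδ
    refine conn (P := fun δ => g δ (π i) = g γ (π i)) (· ≠ i) ?_ rfl
      (fun t ht => by rw [not_not.1 ht, hδ])
    intro ε l q hl hε
    by_cases e : q = ε l
    · rw [e, update_eq_self, hε]
    · rw [← (all ε l q e).2 _ (fun x => hl (inj x).symm), hε]
  have inj2 : ∀ i, Injective fun p : Λ => g (fun _ => p) (π i) := by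
    intro i p q hpq
    by_contra e
    have := (all (fun _ => p) i q (Ne.symm e)).1
    rw [key i (fun _ => q) (update (fun _ => p) i q) (by simp)] at this
    exact this hpq
  let π' : Perm ι := Equiv.ofBijective π (Finite.injective_iff_bijective.1 inj)
  refine ⟨π', fun j => Equiv.ofBijective _ (Finite.injective_iff_bijective.1 (inj2 (π'.symm j))),
    fun f j => ?_⟩
  obtain ⟨i, rfl⟩ := π'.surjective j
  change g f (π i) = g (fun _ => f (π'.symm (π' i))) (π (π'.symm (π' i)))
  rw [symm_apply_apply]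
  exact key i _ _ rfl

omit [DecidableEq Λ] in
theorem pow_pos5 (h5 : 5 ≤ Fintype.card Λ) : 0 < Fintype.card Λ ^ (Fintype.card ι - 1) :=
  pow_pos (by omega) _

theorem card_fix_le {y : Perm (ι → Λ)} {π : Perm ι} {τ : ι → Perm Λ} (h : Wr y π τ) {l : ι}
    (hl : π.symm l ≠ l) : y.supportᶜ.card ≤ Fintype.card Λ ^ (Fintype.card ι - 1) := by
  rw [← card_Z l, ← Finset.card_univ]
  refine Finset.card_le_card_of_injOn (res l) (by simp) fun γ a1 δ a2 e => eq_of_res e ?_
  simp only [Finset.coe_compl, Set.mem_compl_iff, Finset.mem_coe, Perm.mem_support, not_not]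
    at a1 a2
  rw [← a1, ← a2, h, h, res_eq_iff.1 e _ hl]

theorem small (h5 : 5 ≤ Fintype.card Λ) {y : Perm (ι → Λ)} (hy : y ∈ W ι Λ) (h3 : y ^ 3 = 1)
    (hc : y.support.card = 3 * Fintype.card Λ ^ (Fintype.card ι - 1)) :
    ∃ j ρ, ρ.IsThreeCycle ∧ y = co j ρ := by
  obtain ⟨π, τ, h⟩ := hy
  have hN := pow_pos5 (ι := ι) h5
  have hπ : ∀ l, π.symm l = l := by
    intro l
    by_contra hl
    have := card_fix_le h hl
    rw [Finset.card_compl, hc, card_om l] at this
    have h2 := Nat.mul_le_mul_right (Fintype.card Λ ^ (Fintype.card ι - 1)) h5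
    omega
  have h' : ∀ f l, y f l = τ l (f l) := fun f l => by rw [h, hπ]
  obtain ⟨γ, hγ⟩ := Finset.card_pos.1 (show 0 < y.support.card by omega)
  obtain ⟨j, hj⟩ := Function.ne_iff.1 (Perm.mem_support.1 hγ)
  have t1 : τ j ≠ 1 := fun e => hj (by rw [h', e]; rfl)
  have t3 : τ j ^ 3 = 1 := by
    ext a
    have := congrFun (congrArg (fun g : Perm (ι → Λ) => g (fun _ => a)) h3) j
    simpa [pow_succ, h'] using this
  obtain ⟨k, k0, -, hk⟩ := Cfsg.Lib.Perm.exists_card_support_eq Nat.prime_three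
    (haveI := Fact.mk Nat.prime_three; orderOf_eq_prime t3 t1)
  have sub : (co j (τ j)).support ⊆ y.support := fun δ hδ => by
    rw [Perm.mem_support] at hδ ⊢
    exact fun e => hδ (co_fix.2 (by rw [← h', e]))
  have le := Finset.card_le_card sub
  rw [card_support_co, hc, hk] at le
  obtain rfl : k = 1 := by have := Nat.le_of_mul_le_mul_right le hN; omega
  have eq := Finset.eq_of_subset_of_card_le sub (by rw [card_support_co, hc, hk])
  refine ⟨j, τ j, card_support_eq_three_iff.1 hk, ?_⟩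
  ext f l
  by_cases e : l = j
  · rw [e, h', co_same]
  rw [co_ne e, h']
  obtain ⟨x, hx⟩ := exists_new (τ j).support (by omega)
  have : update f j x ∉ y.support := by
    rw [← eq, Perm.notMem_support, co_fix, update_self]
    exact Perm.notMem_support.1 hx
  have := congrFun (Perm.notMem_support.1 this) l
  rwa [h', update_of_ne e] at this

theorem conj_small (h5 : 5 ≤ Fintype.card Λ) {g : Perm (ι → Λ)} {i : ι} {ξ : Perm Λ}
    (hξ : ξ.IsThreeCycle) (hy : g * co i ξ * g⁻¹ ∈ W ι Λ) :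
    ∃ j ρ, ρ.IsThreeCycle ∧ g * co i ξ * g⁻¹ = co j ρ :=
  small h5 hy (by rw [conj_pow, ← map_pow, ← hξ.orderOf, pow_orderOf_eq_one]; simp)
    (by rw [card_support_conj, card_support_co, hξ.card_support])

end Cfsg.Lib.PA
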