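import Cfsg.Agent.Lib.PA.Jor
import Cfsg.Agent.Lib.PA.Ham

/-! The centraliser of a three-cycle in one coordinate. -/

namespace Cfsg.Lib.PA
open Equiv Equiv.Perm Function MulAction

variable {ι Λ : Type*} [DecidableEq ι] [Fintype Λ] [DecidableEq Λ] [Fintype ι]

/-- The centraliser in `G` of `co i ξ`. -/
def Cen (G : Subgroup (Perm (ι → Λ))) (i : ι) (ξ : Perm Λ) : Subgroup (Perm (ι → Λ)) :=
  G ⊓ Subgroup.centralizer {co i ξ}

variable {G : Subgroup (Perm (ι → Λ))} {i : ι} {ξ : Perm Λ} {u v : Perm (ι → Λ)}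

omit [Fintype Λ] [DecidableEq Λ] [Fintype ι] in
theorem mem_cen : u ∈ Cen G i ξ ↔ u ∈ G ∧ u * co i ξ = co i ξ * u := by
  rw [Cen, Subgroup.mem_inf, Subgroup.mem_centralizer_singleton_iff]

omit [Fintype Λ] [DecidableEq Λ] [Fintype ι] in
theorem cen_pow (hu : u ∈ Cen G i ξ) (e : ℕ) (γ : ι → Λ) :
    u ((co i ξ ^ e) γ) = (co i ξ ^ e) (u γ) := by
  have : Commute u (co i ξ) := (mem_cen.1 hu).2
  rw [← Perm.mul_apply, (this.pow_right e).eq, Perm.mul_apply]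

omit [Fintype ι] in
theorem cen_iff (hu : u ∈ Cen G i ξ) (γ : ι → Λ) : u γ i ∈ ξ.support ↔ γ i ∈ ξ.support := by
  have := cen_pow hu 1 γ
  simp only [pow_one] at this
  rw [Perm.mem_support, Perm.mem_support, Ne, Ne, ← co_fix (i := i) (γ := u γ),
    ← co_fix (i := i) (γ := γ), ← this, u.injective.eq_iff]

omit [Fintype ι] in
theorem exists_pow_seg (hξ : ξ.IsThreeCycle) {γ δ : ι → Λ} (h1 : γ i ∈ ξ.support)
    (h2 : δ i ∈ ξ.support) (h : res i γ = res i δ) : ∃ e : ℕ, (co i ξ ^ e) γ = δ := by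
  obtain ⟨e, he⟩ := hξ.isCycle.exists_pow_eq (Perm.mem_support.1 h1) (Perm.mem_support.1 h2)
  exact ⟨e, by rw [← map_pow]; exact eq_of_res (by rw [res_co_same, h]) (by rw [co_same, he])⟩

theorem cen_acts (hξ : ξ.IsThreeCycle) (hu : u ∈ Cen G i ξ) : ∃ r, Acts u i ξ.support r := by
  obtain ⟨a, ha⟩ := Finset.card_pos.1 (show 0 < ξ.support.card by rw [hξ.card_support]; omega)
  refine exists_acts ha (fun γ h => (cen_iff hu γ).2 h) fun γ δ h1 h2 h => ?_
  obtain ⟨e, rfl⟩ := exists_pow_seg hξ h1 h2 h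
  rw [cen_pow hu, ← map_pow, res_co_same]

omit [Fintype Λ] [DecidableEq Λ] [Fintype ι] in
theorem co_mem_cen {j : ι} (hj : j ≠ i) {ρ : Perm Λ} (h : co j ρ ∈ G) : co j ρ ∈ Cen G i ξ :=
  mem_cen.2 ⟨h, co_comm hj _ _⟩

theorem Hyp.resid (h : Hyp G) (hξ : ξ.IsThreeCycle) : Hyp (Res (Cen G i ξ) i ξ.support) where
  h5 := h.h5
  even j ρ hρ := ⟨_, co_mem_cen j.2 (h.even j ρ hρ), acts_co j.2 ρ⟩
  six h6 j ρ := ⟨_, co_mem_cen j.2 (h.six h6 j ρ), acts_co j.2 ρ⟩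
  top π := by
    obtain ⟨c, hc⟩ := exists_new ξ.support (by rw [hξ.card_support]; have := h.h5; omega)
    obtain ⟨d, hd⟩ := exists_new (insert c ξ.support) (by
      rw [Finset.card_insert_of_notMem hc, hξ.card_support]; have := h.h5; omega)
    simp only [Finset.mem_insert, not_or] at hd
    obtain ⟨g, hg, τ, hw, hτ⟩ := h.top' (ofSubtype π) i (Ne.symm hd.1)
    have hi : ofSubtype π i = i := ofSubtype_apply_of_not_mem π (by simp)
    have hK : g ∈ Cen G i ξ := by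
      refine mem_cen.2 ⟨hg, ?_⟩
      rw [← mul_inv_eq_iff_eq_mul, hw.conj, hi]
      congr 1
      rcases hτ with e | e <;> rw [e]
      · simp
      · rw [mul_inv_eq_iff_eq_mul, mul_swap_eq_swap_mul, Perm.notMem_support.1 hc,
          Perm.notMem_support.1 hd.2]
    obtain ⟨r, hr⟩ := cen_acts hξ hK
    obtain ⟨a, ha⟩ := Finset.card_pos.1 (show 0 < ξ.support.card by rw [hξ.card_support]; omega)
    refine ⟨r, ⟨g, hK, hr⟩, fun j => τ j, fun z j => ?_⟩
    have := congrFun (hr (ext i a z) (by simpa using ha)).2 j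
    rw [res_ext] at this
    rw [← this, PA.res, hw]
    congr 1
    have e : (ofSubtype π).symm j = π.symm j := by
      rw [symm_apply_eq, ofSubtype_apply_coe, apply_symm_apply]
    rw [e]
    exact congrFun (res_ext i a z) (π.symm j)

/-- The kernel of the action on the segments. -/
def Ker0 (G : Subgroup (Perm (ι → Λ))) (i : ι) (ξ : Perm Λ) : Subgroup (Perm (ι → Λ)) where
  carrier := {u | u ∈ Cen G i ξ ∧ Acts u i ξ.support 1}
  one_mem' := ⟨one_mem _, fun _ h => ⟨h, rfl⟩⟩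
  mul_mem' := fun ⟨a, b⟩ ⟨c, d⟩ => ⟨mul_mem a c, by simpa using b.mul d⟩
  inv_mem' := fun ⟨a, b⟩ => ⟨inv_mem a, by simpa using b.inv⟩

theorem ker0_pow (hξ : ξ.IsThreeCycle) (hu : u ∈ Ker0 G i ξ) {γ : ι → Λ}
    (h : γ i ∈ ξ.support) : ∃ e : ℕ, (co i ξ ^ e) γ = u γ :=
  exists_pow_seg hξ h (hu.2 γ h).1 (hu.2 γ h).2.symm

theorem ker0_comm (hξ : ξ.IsThreeCycle) (hu : u ∈ Ker0 G i ξ) (hv : v ∈ Ker0 G i ξ) :
    (v * u)⁻¹ * (u * v) ∈ Sup G i ξ.supportᶜ := by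
  refine ⟨mul_mem (inv_mem (mul_mem hv.1.1 hu.1.1)) (mul_mem hu.1.1 hv.1.1), fun γ h => ?_⟩
  have h' : γ i ∈ ξ.support := by simpa using h
  obtain ⟨e, he⟩ := ker0_pow hξ hu h'
  obtain ⟨f, hf⟩ := ker0_pow hξ hv h'
  rw [Perm.mul_apply, Perm.inv_eq_iff_eq, Perm.mul_apply, Perm.mul_apply]
  conv_lhs => rw [← hf, cen_pow hu.1, ← he]
  conv_rhs => rw [← he, cen_pow hv.1, ← hf]
  rw [← Perm.mul_apply, ← Perm.mul_apply, ← pow_add, ← pow_add, add_comm]

theorem ker0_cube (hξ : ξ.IsThreeCycle) (hu : u ∈ Ker0 G i ξ) :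
    u ^ 3 ∈ Sup G i ξ.supportᶜ := by
  refine ⟨pow_mem hu.1.1 3, fun γ h => ?_⟩
  obtain ⟨e, he⟩ := ker0_pow hξ hu (show γ i ∈ ξ.support by simpa using h)
  have h2 : u (u γ) = (co i ξ ^ e) ((co i ξ ^ e) γ) := by
    conv_lhs => rw [← he, cen_pow hu.1, ← he]
  have h3 : (co i ξ ^ e) ^ 3 = 1 := by
    rw [← pow_mul, mul_comm, pow_mul, ← map_pow, ← hξ.orderOf, pow_orderOf_eq_one]; simp
  have h4 := congrArg (fun g : Perm (ι → Λ) => g γ) h3
  simp only [pow_succ, pow_zero, one_mul, Perm.mul_apply, Perm.one_apply] at h4 ⊢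
  rw [h2, cen_pow hu.1, cen_pow hu.1, ← he, h4]

theorem ker0_conj {j : ι} (hj : j ≠ i) {ρ : Perm Λ} (h : co j ρ ∈ G) (hu : u ∈ Ker0 G i ξ) :
    co j ρ * u * (co j ρ)⁻¹ ∈ Ker0 G i ξ :=
  ⟨mul_mem (mul_mem (co_mem_cen hj h) hu.1) (inv_mem (co_mem_cen hj h)),
    by simpa using ((acts_co hj ρ).mul hu.2).mul (acts_co hj ρ).inv⟩

omit [Fintype Λ] [DecidableEq Λ] [Fintype ι] in
theorem co_mul_eq {j l : ι} (hj : j ≠ i) {a b c : Perm Λ} (hb : b ≠ 1)
    (h : co i a * co j b = co l c) : a = 1 := by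
  obtain ⟨p, hp⟩ : ∃ p, b p ≠ p := by
    by_contra hc; push Not at hc; exact hb (Equiv.ext hc)
  have hl : l = j := by
    by_contra e
    have := congrFun (congrArg (fun g : Perm (ι → Λ) => g (fun _ => p)) h) j
    simp only [Perm.mul_apply] at this
    rw [co_ne hj, co_same, co_ne (Ne.symm e)] at this
    exact hp this
  ext q
  have := congrFun (congrArg (fun g : Perm (ι → Λ) => g (fun _ => q)) h) i
  simp only [Perm.mul_apply] at this
  rwa [hl, co_same, co_ne hj.symm, co_ne hj.symm] at this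

variable (h : Hyp G) (hA : ¬ alternatingGroup (ι → Λ) ≤ G) (hξ : ξ.IsThreeCycle)
include h hA hξ

theorem Hyp.supA (hu : u ∈ Sup G i ξ.supportᶜ) {j : ι} (hj : j ≠ i) (γ : ι → Λ) :
    u γ j = γ j :=
  h.sA hA (by
    have := h.h5
    rw [Finset.card_compl, hξ.card_support]; omega) hu hj γ

theorem Hyp.ker0_of_trans (ht : ∀ a ∉ ξ.support, ∀ b ∉ ξ.support,
    ∃ ρ, co i ρ ∈ Sup G i ξ.supportᶜ ∧ ρ a = b) (hu : u ∈ Ker0 G i ξ) {j : ι} (hj : j ≠ i)
    (γ : ι → Λ) : u γ j = γ j := by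
  by_cases hγ : γ i ∈ ξ.support
  · exact res_eq_iff.1 (hu.2 γ hγ).2 j hj
  have hp : ∀ v ∈ Ker0 G i ξ, ∀ δ : ι → Λ, δ i ∈ ξ.supportᶜ → v δ i ∈ ξ.supportᶜ :=
    fun v hv δ hδ => by rwa [Finset.mem_compl, cen_iff hv.1, ← Finset.mem_compl]
  obtain ⟨r, hr⟩ := exists_acts (Finset.mem_compl.2 hγ) (hp u hu) fun δ ε a1 a2 a3 => by
    obtain ⟨ρ, r1, r2⟩ := ht _ (Finset.mem_compl.1 a1) _ (Finset.mem_compl.1 a2)
    have e : ε = co i ρ δ := eq_of_res (by rw [res_co_same, a3]) (by rw [co_same, r2])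
    have := sup_conj hu.1.1 (hp u hu) r1
    refine res_eq_iff.2 fun l hl => ?_
    rw [← h.supA hA hξ this hl (u δ), e]
    simp
  refine res_eq_iff.1 (ab_res h.h5 (N := Ker0 G i ξ)
    (fun l hl ρ hρ v hv => ker0_conj hl (h.even l ρ hρ) hv) (fun v hv w hw δ _ => ?_) hu hr
    (Finset.mem_compl.2 hγ)) j hj
  have a1 := ker0_comm hξ hv hw
  have a2 := sup_conj (g := w * v) (mul_mem hw.1.1 hv.1.1) (hp _ (mul_mem hw hv)) a1
  refine res_eq_iff.2 fun l hl => ?_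
  rw [← h.supA hA hξ a2 hl (w (v δ))]
  simp [mul_assoc]

theorem Hyp.ker0_co (hu : u ∈ Ker0 G i ξ) : ∃ ρ, u = co i ρ := by
  refine h.isCo hA hu.1.1 fun j hj γ => ?_
  have hc : ξ.supportᶜ.card + 3 = Fintype.card Λ := by
    have := h.h5
    rw [Finset.card_compl, hξ.card_support]; omega
  have sup1 : ∀ ρ : Perm Λ, co i ρ ∈ G → (∀ x ∈ ξ.support, ρ x = x) →
      co i ρ ∈ Sup G i ξ.supportᶜ := fun ρ a b => ⟨a, fun δ hδ => co_fix.2 (b _ (by simpa using hδ))⟩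
  rcases h.h5.eq_or_lt with h5 | h6
  swap
  · refine h.ker0_of_trans hA hξ (fun a ha b hb => ?_) hu hj γ
    by_cases e : a = b
    · exact ⟨1, by rw [map_one]; exact one_mem _, e⟩
    obtain ⟨c, hc⟩ := exists_new (insert a (insert b ξ.support)) (by
      rw [Finset.card_insert_of_notMem (by simp only [Finset.mem_insert, not_or]; exact ⟨e, ha⟩),
        Finset.card_insert_of_notMem hb, hξ.card_support]; omega)
    simp only [Finset.mem_insert, not_or] at hc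
    refine ⟨c3 a b c, sup1 _ (h.even _ _ (c3_three e (Ne.symm hc.1)
      (Ne.symm hc.2.1)).mem_alternatingGroup) fun x hx => c3_ne ?_ ?_ ?_, c3_a e (Ne.symm hc.2.1)⟩
    · rintro rfl; exact ha hx
    · rintro rfl; exact hb hx
    · rintro rfl; exact hc.2.2 hx
  obtain ⟨a, b, hab, hs⟩ := Finset.card_eq_two.1 (show ξ.supportᶜ.card = 2 by omega)
  have mem : ∀ x, x ∉ ξ.support ↔ x = a ∨ x = b := fun x => by
    rw [← Finset.mem_compl, hs]; simp
  by_cases hsw : co i (swap a b) ∈ G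
  · refine h.ker0_of_trans hA hξ (fun x hx y hy => ?_) hu hj γ
    by_cases e : x = y
    · exact ⟨1, by rw [map_one]; exact one_mem _, e⟩
    refine ⟨swap a b, sup1 _ hsw fun z hz => swap_apply_of_ne_of_ne ?_ ?_, ?_⟩
    · rintro rfl; exact (mem _).2 (Or.inl rfl) hz
    · rintro rfl; exact (mem _).2 (Or.inr rfl) hz
    · rcases (mem x).1 hx with rfl | rfl <;> rcases (mem y).1 hy with rfl | rfl <;> simp_all
  have cube : ∀ v ∈ Ker0 G i ξ, v ^ 3 = 1 := by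
    intro v hv
    have a1 := ker0_cube hξ hv
    obtain ⟨ρ, hρ⟩ := h.isCo hA a1.1 fun l hl δ => h.supA hA hξ a1 hl δ
    have fx : ∀ x, x ≠ a → x ≠ b → ρ x = x := fun x x1 x2 => by
      have := a1.2 (fun _ => x) (by rw [hs]; simp [x1, x2])
      rwa [hρ, co_fix] at this
    have im : ∀ x, ρ x = x ∨ ρ x = a ∨ ρ x = b := fun x => by
      by_contra hc
      push Not at hc
      exact hc.1 (ρ.injective (fx _ hc.2.1 hc.2.2))
    by_cases e : ρ a = a
    · have : ρ = 1 := by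
        ext x
        by_cases x1 : x = a
        · rw [x1, e]; rfl
        by_cases x2 : x = b
        · rcases im x with t | t | t
          · exact t
          · exact absurd (ρ.injective (t.trans e.symm)) x1
          · exact t.trans x2.symm
        · exact fx x x1 x2
      rw [hρ, this, map_one]
    · have e1 : ρ a = b := by have := im a; tauto
      have : ρ = swap a b := by
        ext x
        by_cases x1 : x = a
        · rw [x1, e1, swap_apply_left]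
        by_cases x2 : x = b
        · rw [x2, swap_apply_right]
          rcases im b with t | t | t
          · exact absurd (ρ.injective (e1.trans t.symm)) hab
          · exact t
          · exact absurd (ρ.injective (e1.trans t.symm)) hab
        · rw [fx x x1 x2, swap_apply_of_ne_of_ne x1 x2]
      exact absurd (by rw [← this, ← hρ]; exact a1.1) hsw
  by_contra hne
  have inv : InvAt (Orb (Ker0 G i ξ)) j := fun ρ hρ =>
    orb_inv fun v hv => ker0_conj hj (h.even j ρ hρ) hv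
  have hg := good_of_rel h.h5 (orb_equiv _) inv ⟨u, hu, rfl⟩ (Ne.symm hne)
  obtain ⟨σ, s1, s2, s3⟩ := exists_supp_eq (Λ := Λ) (j := 1) Nat.prime_five (D := Finset.univ)
    (by rw [Finset.card_univ]; omega) one_pos
  classical
  have hm := Cfsg.Lib.Perm.card_modEq_card_fixed (σ := co j σ) Nat.prime_five
    (by rw [← map_pow, s1, map_one]) (T := Finset.univ.filter (Orb (Ker0 G i ξ) γ)) (by
      intro δ hδ
      simp only [Finset.mem_filter, Finset.mem_univ, true_and] at hδ ⊢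
      exact (orb_equiv _).trans (hg _) (inv σ (by rw [mem_alternatingGroup, s3]; decide) _ _ hδ))
  rw [support_co, s2, Finset.sdiff_eq_empty_iff_subset.2 (by simp)] at hm
  have hP : IsPGroup 3 (Ker0 G i ξ) := fun v => ⟨1, Subtype.ext (cube v v.2)⟩
  have := Fact.mk Nat.prime_three
  obtain ⟨e, he⟩ := hP.card_orbit γ
  have e2 : Nat.card (orbit (Ker0 G i ξ) γ) =
      (Finset.univ.filter (Orb (Ker0 G i ξ) γ)).card := by
    rw [Nat.card_coe_set_eq, ← Set.ncard_coe_finset]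
    congr 1
    ext δ
    simp only [Finset.coe_filter, Finset.mem_univ, true_and, Set.mem_setOf_eq]
    exact ⟨fun ⟨v, hv⟩ => ⟨v, v.2, hv⟩, fun ⟨v, a, b⟩ => ⟨⟨v, a⟩, b⟩⟩
  rw [← e2, he] at hm
  have h53 : 5 ∣ 3 ^ e := (Nat.modEq_zero_iff_dvd).1 hm
  have := Nat.prime_five.dvd_of_dvd_pow h53
  omega

theorem Hyp.conj_eq {r : Perm ({j // j ≠ i} → Λ)} (hu : u ∈ Cen G i ξ)
    (hr : Acts u i ξ.support r) {j l : {j // j ≠ i}} {ρ ρ' : Perm Λ} (h1 : ρ.IsThreeCycle)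
    (h2 : ρ'.IsThreeCycle) (e : r * co j ρ * r⁻¹ = co l ρ') :
    u * co j.1 ρ * u⁻¹ = co l.1 ρ' := by
  have a1 := co_mem_cen (ξ := ξ) j.2 (h.even j ρ h1.mem_alternatingGroup)
  have a2 := co_mem_cen (ξ := ξ) l.2 (h.even l ρ' h2.mem_alternatingGroup)
  obtain ⟨a, ha⟩ := h.ker0_co hA hξ (u := u * co j.1 ρ * u⁻¹ * (co l.1 ρ')⁻¹)
    ⟨mul_mem (mul_mem (mul_mem hu a1) (inv_mem hu)) (inv_mem a2), by
      have := ((hr.mul (acts_co j.2 ρ)).mul hr.inv).mul (acts_co l.2 ρ').inv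
      rwa [e, mul_inv_cancel] at this⟩
  rw [mul_inv_eq_iff_eq_mul] at ha
  obtain ⟨t, c, -, hc⟩ := conj_small h.h5 h1 (ha ▸ mul_mem (co_mem_W _ _) (co_mem_W _ _))
  rw [ha, co_mul_eq l.2 h2.ne_one (ha.symm.trans hc), map_one, one_mul]

theorem Hyp.cen_W (hW : Res (Cen G i ξ) i ξ.support ≤ W _ Λ) (hu : u ∈ Cen G i ξ) :
    u ∈ W ι Λ := by
  have cj : ∀ v ∈ Cen G i ξ, ∀ j, j ≠ i → ∀ ρ : Perm Λ, ρ.IsThreeCycle →
      ∃ l ρ', l ≠ i ∧ v * co j ρ * v⁻¹ = co l ρ' := by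
    intro v hv j hj ρ hρ
    obtain ⟨r, hr⟩ := cen_acts hξ hv
    obtain ⟨π, τ, hw⟩ := hW ⟨v, hv, hr⟩
    exact ⟨_, _, (π ⟨j, hj⟩).2, h.conj_eq hA hξ hv hr (j := ⟨j, hj⟩) hρ
      (by rw [IsThreeCycle, cycleType_conj]; exact hρ) (hw.conj _ ρ)⟩
  have adj : ∀ v ∈ Cen G i ξ, ∀ γ δ, Adj γ δ → Adj (v γ) (v δ) := by
    rintro v hv γ δ ⟨j, hd⟩
    have hne : v γ ≠ v δ := fun e => hd.1 (by rw [v.injective e])
    by_cases hj : j = i
    · subst hj
      have : ∀ l, l ≠ j → v γ l = v δ l := by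
        intro l hl
        by_contra e
        obtain ⟨ρ, r1, r2, r3, -⟩ := exists_c3' h.h5 e e
        obtain ⟨t, c, ht, hc⟩ := cj v⁻¹ (inv_mem hv) l hl ρ r1
        have b1 : co t c γ = γ := by rw [← hc]; simp [co_fix.2 r3]
        rw [co_fix, hd.2 t ht, ← co_fix, ← hc, inv_inv, Perm.mul_apply, Perm.mul_apply,
          Perm.inv_eq_iff_eq, co_fix] at b1
        exact r2 b1
      exact ⟨j, fun e => hne (eq_of_res (res_eq_iff.2 this) e), this⟩
    · obtain ⟨x, x1, x2, -⟩ := exists_ne4 h.h5 (γ j) (δ j) (δ j) (δ j)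
      obtain ⟨ρ, r1, r2, -⟩ := exists_c3 h.h5 hd.1 x1 x2 x1 x2
      obtain ⟨t, c, -, hc⟩ := cj v hv j hj ρ r1
      have : v δ = co t c (v γ) := by
        rw [← hc, hd.eq_update, ← r2, ← co_apply]; simp
      rw [this] at hne ⊢
      exact adj_co hne.symm
  exact mem_W_of_adj h.h5 (adj u hu) fun γ δ e => by simpa using adj _ (inv_mem hu) _ _ e

theorem Hyp.not_alt {j l : {j // j ≠ i}} (hjl : j ≠ l) :
    ¬ alternatingGroup _ ≤ Res (Cen G i ξ) i ξ.support := by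
  intro hle
  obtain ⟨a, ha⟩ := Finset.card_pos.1 (show 0 < ξ.support.card by rw [hξ.card_support]; omega)
  obtain ⟨b, b1, -⟩ := exists_ne4 h.h5 a a a a
  obtain ⟨c, c1, c2, -⟩ := exists_ne4 h.h5 a b a a
  let z : Λ → {j // j ≠ i} → Λ := fun p => update (fun _ => a) j p
  have zi : ∀ p q, p ≠ q → z p ≠ z q := fun p q e x => e (by simpa [z] using congrFun x j)
  have zl : ∀ p, z p l = a := fun p => update_of_ne hjl.symm _ _
  obtain ⟨u, hu, hr⟩ := hle (c3_three (zi _ _ b1.symm) (zi _ _ c1.symm)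
    (zi _ _ c2.symm)).mem_alternatingGroup
  have com : ∀ ρ : Perm Λ, ρ.IsThreeCycle → ρ a = a → ∀ γ, u (co l.1 ρ γ) = co l.1 ρ (u γ) := by
    intro ρ r1 r2 γ
    have := h.conj_eq hA hξ hu hr (j := l) (l := l) r1 r1 (by
      have fx : ∀ p, co l ρ (z p) = z p := fun p => co_fix.2 (by rw [zl, r2])
      rw [mul_inv_eq_iff_eq_mul, c3, mul_assoc, ← mul_assoc (co l ρ),
        mul_swap_eq_swap_mul (co l ρ), mul_assoc, mul_swap_eq_swap_mul (co l ρ), fx, fx, fx])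
    rw [mul_inv_eq_iff_eq_mul] at this
    rw [← Perm.mul_apply, this, Perm.mul_apply]
  have pres : ∀ γ, u γ l = γ l := by
    intro γ
    rcases mem_of_fix h.h5 (a := u γ l) (x := a) (y := γ l) fun ρ r1 r2 r3 => by
      rw [← co_fix, ← com ρ r1 r2, co_fix.2 r3] with e | e
    · rcases mem_of_fix h.h5 (a := γ l) (x := a) (y := a) fun ρ r1 r2 _ => by
        rw [← co_fix, ← u.injective.eq_iff, com ρ r1 r2, co_fix, e, r2] with e' | e' <;>
      rw [e, e']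
    · exact e
  obtain ⟨ρ, r1, r2, -⟩ := exists_c3' h.h5 b1 b1
  have e1 := congrArg (fun g : Perm (ι → Λ) => res i (g (ext i a (z a))))
    (h.const hA hu.1 pres r1)
  simp only [Perm.mul_apply] at e1
  have hne : ∀ p, co l ρ (z a) ≠ z p := fun p x => r2 (by simpa [zl] using congrFun x l)
  rw [(hr _ (by rw [co_ne l.2.symm]; simpa using ha)).2, res_co l.2, res_co l.2,
    (hr _ (by simpa using ha)).2, res_ext, c3_ne (hne _) (hne _) (hne _),
    c3_a (zi _ _ b1.symm) (zi _ _ c2.symm), (co _ ρ).injective.eq_iff] at e1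
  exact zi _ _ b1.symm e1

end Cfsg.Lib.PA
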