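import Cfsg.Agent.Lib.PA.Sup
import Cfsg.Agent.Lib.Perm.Sym2

/-! A Sylow argument; elements supported on `m - 3` layers. -/

namespace Cfsg.Lib.PA
open Equiv Equiv.Perm Function MulAction

section sylow
variable {Γ : Type*} [Group Γ] [Finite Γ] {p : ℕ}

omit [Finite Γ] in
theorem isP_zpowers {x : Γ} (hx : x ^ p = 1) : IsPGroup p (Subgroup.zpowers x) := by
  rintro ⟨_, n, rfl⟩
  refine ⟨1, Subtype.ext ?_⟩
  change (x ^ n) ^ p ^ 1 = 1
  rw [pow_one, ← zpow_natCast, ← zpow_mul, mul_comm, zpow_mul, zpow_natCast, hx, one_zpow]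

theorem syl_top (hp : p.Prime) {H : Subgroup Γ} {x : Γ} (hx : x ∈ H) (hxp : x ^ p = 1)
    (h : ∀ u, u * x * u⁻¹ ∈ H → u ∈ H) {y : Γ} (hy : y ^ p = 1) : ∃ g, g * y * g⁻¹ ∈ H := by
  have := Fact.mk hp
  obtain ⟨Q, hQ⟩ := (isP_zpowers hxp).exists_le_sylow
  obtain ⟨Q', hQ'⟩ := (isP_zpowers hy).exists_le_sylow
  have hxQ : x ∈ (Q : Subgroup Γ) := hQ (Subgroup.mem_zpowers x)
  have hle : (Q : Subgroup Γ) ≤ H := by
    have := Q.isPGroup'.isNilpotent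
    have ht := normalizerCondition_iff_only_full_group_self_normalizing.1
      (normalizerCondition_of_isNilpotent (G := Q)) (H.subgroupOf Q) (le_antisymm (fun u hu => ?_)
        Subgroup.le_normalizer)
    · exact Subgroup.subgroupOf_eq_top.1 ht
    · exact h u ((Subgroup.mem_normalizer_iff.1 hu ⟨x, hxQ⟩).1 hx)
  obtain ⟨g, hg⟩ := exists_smul_eq Γ Q' Q
  refine ⟨g, hle ?_⟩
  rw [← hg, Sylow.coe_subgroup_smul]
  exact Subgroup.smul_mem_pointwise_smul _ (MulAut.conj g) _ (hQ' (Subgroup.mem_zpowers y))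

theorem syl_in (hp : p.Prime) {H L : Subgroup Γ} {x : Γ} (hx : x ∈ H) (hxL : x ∈ L)
    (hxp : x ^ p = 1) (h : ∀ u ∈ L, u * x * u⁻¹ ∈ H → u ∈ H) {y : Γ} (hyL : y ∈ L)
    (hy : y ^ p = 1) : ∃ g ∈ L, g * y * g⁻¹ ∈ H := by
  obtain ⟨g, hg⟩ := syl_top (Γ := L) hp (H := H.subgroupOf L) (x := ⟨x, hxL⟩) hx
    (Subtype.ext hxp) (fun u hu => h u u.2 hu) (y := ⟨y, hyL⟩) (Subtype.ext hy)
  exact ⟨g, g.2, hg⟩

end sylow

theorem exists_prime_even {d : ℕ} (hd : 3 ≤ d) :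
    ∃ p j, p.Prime ∧ d = j * p ∧ Even (j * p + j) := by
  by_cases h4 : 4 ∣ d
  · obtain ⟨j, rfl⟩ := h4
    exact ⟨2, 2 * j, Nat.prime_two, by ring, ⟨3 * j, by ring⟩⟩
  have key : ∀ e : ℕ, e ∣ d → e % 2 = 1 → e ≠ 1 → ∃ p j, p.Prime ∧ d = j * p ∧ Even (j * p + j) := by
    intro e he h1 h2
    obtain ⟨p, hp, hpe⟩ := Nat.exists_prime_and_dvd h2
    obtain ⟨j, hj⟩ := hpe.trans he
    refine ⟨p, j, hp, by rw [hj, mul_comm], ?_⟩
    have : Odd p := Odd.of_dvd_nat (Nat.odd_iff.2 h1) hpe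
    rw [← mul_add_one]
    exact this.add_one.mul_left j
  by_cases h2 : d % 2 = 1
  · exact key d dvd_rfl h2 (by omega)
  · exact key (d / 2) (Nat.div_dvd_of_dvd (by omega)) (by omega) (by omega)

variable {ι Λ : Type*} [DecidableEq ι] [Fintype Λ] [DecidableEq Λ] [Fintype ι]

theorem exists_supp_eq {p j : ℕ} (hp : p.Prime) {D : Finset Λ} (hD : D.card = j * p) (hj : 0 < j) :
    ∃ σ : Perm Λ, σ ^ p = 1 ∧ σ.support = D ∧ sign σ = (-1) ^ (j * p + j) := by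
  obtain ⟨σ, h1, h2⟩ := Cfsg.Lib.Perm.exists_orderOf_card_support (Ω := Λ) hp hj
    (hD ▸ D.card_le_univ)
  obtain ⟨j', -, h3, h4⟩ := Cfsg.Lib.Perm.exists_card_support_eq hp h1
  obtain rfl : j' = j := Nat.eq_of_mul_eq_mul_right hp.pos (h4.symm.trans h2)
  obtain ⟨π, hπ⟩ := Perm.exists_map_finset_eq σ.support D (h2.trans hD.symm)
  refine ⟨π * σ * π⁻¹, by rw [conj_pow, ← h1, pow_orderOf_eq_one]; simp,
    by rw [support_conj, hπ], ?_⟩
  have : sign σ = (-1) ^ (j' * p + j') := by rw [sign_of_cycleType, h3]; simp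
  rw [← this]
  simp [mul_comm (sign π), mul_assoc]

variable {G : Subgroup (Perm (ι → Λ))} {i : ι} {u : Perm (ι → Λ)}

omit [Fintype ι] in
theorem Hyp.exists_fpf (h : Hyp G) (i : ι) {D : Finset Λ}
    (hD : D.card + 4 = Fintype.card Λ) (h6 : 6 ≤ Fintype.card Λ) :
    ∃ (p : ℕ) (σ : Perm Λ), p.Prime ∧ σ ^ p = 1 ∧ σ.support = D ∧ co i σ ∈ G := by
  rcases h6.eq_or_lt with e | e
  · obtain ⟨σ, h1, h2, -⟩ := exists_supp_eq (j := 1) Nat.prime_two (D := D) (by omega) one_pos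
    exact ⟨2, σ, Nat.prime_two, h1, h2, h.six e.symm _ _⟩
  · obtain ⟨p, j, hp, hj, he⟩ := exists_prime_even (d := D.card) (by omega)
    obtain ⟨σ, h1, h2, h3⟩ := exists_supp_eq hp hj (Nat.pos_of_ne_zero (by rintro rfl; omega))
    exact ⟨p, σ, hp, h1, h2, h.even _ _ (by rw [mem_alternatingGroup, h3, he.neg_one_pow])⟩

variable (h : Hyp G) (hA : ¬ alternatingGroup (ι → Λ) ≤ G)
include h hA

/-- An element supported on the layers over `E` and preserving one of them fixes it pointwise,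
unless it preserves the other coordinates. -/
theorem Hyp.one_layer {E : Finset Λ} {a b c : Λ} (hab : a ≠ b) (ha : a ∉ E) (hb : b ∉ E)
    (hc : c ∈ E) (hu : u ∈ Sup G i E) (hp : ∀ γ, γ i = c → u γ i = c) {γ : ι → Λ}
    (hγ : γ i = c) : u γ = γ := by
  have ca : c ≠ a := fun e => ha (e ▸ hc)
  have cb : c ≠ b := fun e => hb (e ▸ hc)
  have hg := h.even i _ (c3_three ca cb hab).mem_alternatingGroup
  set g := co i (c3 c a b) with hgd
  have hp' : ∀ γ, u γ i = c → γ i = c := fun γ hγ => by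
    simpa using inv_mem_layers (u := u) (i := i) (E := {c}) (by simpa using hp) (u γ)
      (by simpa using hγ)
  have gi : ∀ ε : ι → Λ, ε i ≠ c → ε i ≠ a → ε i ≠ b → g ε = ε := fun ε e1 e2 e3 =>
    co_fix.2 (c3_ne e1 e2 e3)
  have gb : ∀ ε : ι → Λ, ε i = b → g⁻¹ ε i = a := fun ε e => by
    rw [hgd, co_inv_same, e, Perm.inv_eq_iff_eq, c3_b]
  have gc : ∀ ε : ι → Λ, ε i = c → g⁻¹ ε i = b := fun ε e => by
    rw [hgd, co_inv_same, e, Perm.inv_eq_iff_eq, c3_c cb hab]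
  have hz : u⁻¹ * (g * u * g⁻¹) ∈ Sup G i {c, a} := by
    refine ⟨G.mul_mem (G.inv_mem hu.1) (G.mul_mem (G.mul_mem hg hu.1) (G.inv_mem hg)),
      fun ε hε => ?_⟩
    simp only [Finset.mem_insert, Finset.mem_singleton, not_or] at hε
    rw [Perm.mul_apply, Perm.inv_eq_iff_eq, Perm.mul_apply, Perm.mul_apply]
    by_cases e : ε i = b
    · rw [hu.2 _ (by rwa [gb ε e]), hu.2 ε (by rwa [e])]; simp
    have a1 : g⁻¹ ε = ε := by rw [Perm.inv_eq_iff_eq, gi ε hε.1 hε.2 e]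
    rw [a1]
    by_cases e' : ε i ∈ E
    · have := sup_mem hu e'
      exact gi _ (fun x => hε.1 (hp' _ x)) (fun x => ha (x ▸ this)) (fun x => hb (x ▸ this))
    · rw [hu.2 ε e', gi ε hε.1 hε.2 e]
  have a2 : (u⁻¹ * (g * u * g⁻¹)) (u γ) = γ := by
    rw [Perm.mul_apply, Perm.mul_apply, Perm.mul_apply, hu.2 _ (by rwa [gc _ (hp γ hγ)])]
    simp
  refine eq_of_res (res_eq_iff.2 fun j hj => ?_) (by rw [hp γ hγ, hγ])
  rw [← h.s2 hA ca hz hj (u γ), a2]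

/-- Elements supported on the layers over `m - 3` letters preserve the other coordinates. -/
theorem Hyp.sA {A : Finset Λ} (hc : A.card + 3 = Fintype.card Λ) (hu : u ∈ Sup G i A) {j : ι}
    (hj : j ≠ i) (γ : ι → Λ) : u γ j = γ j := by
  have h5 := h.h5
  rcases h5.eq_or_lt with e | h6
  · obtain ⟨a, b, hab, rfl⟩ := Finset.card_eq_two.1 (show A.card = 2 by omega)
    exact h.s2 hA hab hu hj γ
  by_contra hne
  have hγ : γ i ∈ A := by
    by_contra hc; exact hne (by rw [hu.2 _ hc])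
  obtain ⟨a, ha⟩ := exists_new A (by omega)
  obtain ⟨b, hb⟩ := exists_new (insert a A) (by rw [Finset.card_insert_of_notMem ha]; omega)
  simp only [Finset.mem_insert, not_or] at hb
  obtain ⟨p, σ, hp, s1, s2, s3⟩ := h.exists_fpf i (D := A.erase (γ i))
    (by rw [Finset.card_erase_of_mem hγ]; omega) h6
  have hx : co i σ ∈ Sup G i (A.erase (γ i)) :=
    ⟨s3, fun ε hε => co_fix.2 (by rwa [← s2, Perm.notMem_support] at hε)⟩
  have hle : Sup G i (A.erase (γ i)) ≤ Sup G i A := fun v hv =>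
    ⟨hv.1, fun ε hε => hv.2 ε fun x => hε (Finset.mem_of_mem_erase x)⟩
  have triv : ∀ v ∈ Sup G i A, v⁻¹ * co i σ * v ∈ Sup G i (A.erase (γ i)) →
      ∀ ε, ε i = γ i → v ε = ε := by
    intro v hv hm ε hε
    refine h.one_layer hA (Ne.symm hb.1) ha hb.2 hγ hv (fun δ hδ => ?_) hε
    have a1 := hm.2 δ (by simp [hδ])
    rw [Perm.mul_apply, Perm.mul_apply, Perm.inv_eq_iff_eq, co_fix, ← Perm.notMem_support, s2] at a1
    have a2 := sup_mem hv (γ := δ) (by rwa [hδ])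
    by_contra a3
    exact a1 (Finset.mem_erase.2 ⟨a3, a2⟩)
  obtain ⟨q, hq, -⟩ := exists_ne4 h5 (γ j) (γ j) (γ j) (γ j)
  obtain ⟨n, hn, en⟩ := h.layer (Ne.symm hb.1) ha hb.2 hu hj hne (δ := update γ j q)
    (update_of_ne hj.symm _ _)
  have hxp : co i σ ^ p = 1 := by rw [← map_pow, s1, map_one]
  have b1 : ∀ v ∈ Sup G i A ⊓ stabilizer _ γ, v * co i σ * v⁻¹ ∈ Sup G i (A.erase (γ i)) →
      v ∈ Sup G i (A.erase (γ i)) := by
    refine fun v hv hm => ⟨hv.1.1, fun ε hε => ?_⟩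
    by_cases e : ε i = γ i
    · have := triv v⁻¹ (inv_mem hv.1) (by simpa using hm) ε e
      rw [Perm.inv_eq_iff_eq] at this
      exact this.symm
    · exact hv.1.2 ε fun x => hε (Finset.mem_erase.2 ⟨e, x⟩)
  have b2 : (n⁻¹ * co i σ * n) γ = γ := by
    rw [Perm.mul_apply, Perm.mul_apply, en, hx.2 _ (by simp [update_of_ne hj.symm]), ← en]
    simp
  obtain ⟨g, hg, hm⟩ := syl_in hp (L := Sup G i A ⊓ stabilizer _ γ) hx
    ⟨hle hx, hx.2 γ (by simp)⟩ hxp b1 (y := n⁻¹ * co i σ * n)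
    (Subgroup.mem_inf.2 ⟨mul_mem (mul_mem (inv_mem hn) (hle hx)) hn, b2⟩)
    (by rw [show n⁻¹ * co i σ * n = n⁻¹ * co i σ * n⁻¹⁻¹ by simp, conj_pow, hxp]; simp)
  have := triv (n * g⁻¹) (mul_mem hn (inv_mem hg.1)) (by simpa [mul_assoc] using hm) γ rfl
  have h2 : g⁻¹ γ = γ := (stabilizer (Perm (ι → Λ)) γ).inv_mem hg.2
  rw [Perm.mul_apply, h2, en] at this
  exact hq (by simpa using congrFun this j)

end Cfsg.Lib.PA
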