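import Cfsg.Agent.Lib.PA.Cent

/-! Overgroups of the product-action wreath product. -/

namespace Cfsg.Lib.PA
open Equiv Equiv.Perm Function MulAction

universe u
variable {ι Λ : Type*} [DecidableEq ι] [Fintype Λ] [DecidableEq Λ] [Fintype ι]
variable {G : Subgroup (Perm (ι → Λ))}

theorem Hyp.key (h : Hyp G) (hC : ∀ i (ξ : Perm Λ), ξ.IsThreeCycle → Cen G i ξ ≤ W ι Λ)
    {g : Perm (ι → Λ)} (hg : g ∈ G) {i : ι} {ξ : Perm Λ} (hξ : ξ.IsThreeCycle)
    (hw : g * co i ξ * g⁻¹ ∈ W ι Λ) : g ∈ W ι Λ := by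
  obtain ⟨j, ρ, hρ, e⟩ := conj_small h.h5 hξ hw
  obtain ⟨w, hwG, τ, hτ⟩ := h.top (swap i j)
  have e1 := hτ.conj i ξ
  rw [swap_apply_left] at e1
  have h3 : (τ j * ξ * (τ j)⁻¹).IsThreeCycle := by rw [IsThreeCycle, cycleType_conj]; exact hξ
  obtain ⟨a, ha⟩ := isConj_iff.1 (alternatingGroup.isThreeCycle_isConj
    (by rw [Nat.card_eq_fintype_card]; exact h.h5) (σ := ⟨_, h3.mem_alternatingGroup⟩)
    (τ := ⟨_, hρ.mem_alternatingGroup⟩) h3 hρ)
  have ha' : a.1 * (τ j * ξ * (τ j)⁻¹) * a.1⁻¹ = ρ := congrArg Subtype.val ha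
  have e2 : (co j a.1 * w) * co i ξ * (co j a.1 * w)⁻¹ = g * co i ξ * g⁻¹ := by
    rw [e, ← ha', map_mul, map_mul, map_inv, ← e1]; group
  have m1 : co j a.1 * w ∈ G := mul_mem (h.even _ _ a.2) hwG
  have m2 : co j a.1 * w ∈ W ι Λ := mul_mem (co_mem_W _ _) ⟨_, _, hτ⟩
  generalize co j a.1 * w = w' at e2 m1 m2
  have : w'⁻¹ * g ∈ W ι Λ := hC i ξ hξ (mem_cen.2 ⟨mul_mem (inv_mem m1) hg, by
    calc w'⁻¹ * g * co i ξ = w'⁻¹ * (g * co i ξ * g⁻¹) * g := by group
      _ = co i ξ * (w'⁻¹ * g) := by rw [← e2]; group⟩)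
  simpa using mul_mem m2 this

theorem Hyp.le_W (h : Hyp G) (hC : ∀ i (ξ : Perm Λ), ξ.IsThreeCycle → Cen G i ξ ≤ W ι Λ) :
    G ≤ W ι Λ := by
  have adj : ∀ g ∈ G, ∀ γ δ, Adj γ δ → Adj (g γ) (g δ) := by
    rintro g hg γ δ ⟨j, hd⟩
    obtain ⟨ξ, x1, x2, x3⟩ := exists_c3'' h.h5 (γ j) (δ j)
    obtain ⟨η, y1, y2, y3⟩ := exists_c3'' h.h5 (g γ j) (g δ j)
    have c3 : ∀ ρ : Perm Λ, ρ.IsThreeCycle → co j ρ ^ 3 = 1 := fun ρ hρ => by
      rw [← map_pow, ← hρ.orderOf, pow_orderOf_eq_one, map_one]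
    have mL : ∀ v : Perm (ι → Λ), v ∈ G ⊓ stabilizer _ (g γ) ⊓ stabilizer _ (g δ) ↔
        v ∈ G ∧ v (g γ) = g γ ∧ v (g δ) = g δ := fun v => and_assoc
    obtain ⟨v, hv, hm⟩ := syl_in Nat.prime_three (H := W ι Λ)
      (L := G ⊓ stabilizer _ (g γ) ⊓ stabilizer _ (g δ)) (co_mem_W j η)
      ((mL _).2 ⟨h.even _ _ y1.mem_alternatingGroup, co_fix.2 y2, co_fix.2 y3⟩) (c3 η y1)
      (fun u hu hw => h.key hC hu.1.1 y1 hw) (y := g * co j ξ * g⁻¹)
      ((mL _).2 ⟨mul_mem (mul_mem hg (h.even _ _ x1.mem_alternatingGroup)) (inv_mem hg),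
        by simp [co_fix.2 x2], by simp [co_fix.2 x3]⟩) (by rw [conj_pow, c3 ξ x1]; simp)
    obtain ⟨π, τ, hw⟩ := h.key hC (mul_mem hv.1.1 hg) x1 (i := j)
      (by simpa [mul_assoc] using hm)
    have := hw.adj ⟨j, hd⟩
    rwa [Perm.mul_apply, Perm.mul_apply, ((mL v).1 hv).2.1, ((mL v).1 hv).2.2] at this
  exact fun g hg => mem_W_of_adj h.h5 (adj g hg) fun γ δ e => by
    simpa using adj _ (inv_mem hg) _ _ e

theorem main_aux (n : ℕ) : ∀ (ι : Type u) [DecidableEq ι] [Fintype ι], Fintype.card ι = n →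
    ∀ G : Subgroup (Perm (ι → Λ)), Hyp G → ¬ alternatingGroup (ι → Λ) ≤ G → G ≤ W ι Λ := by
  induction n using Nat.strong_induction_on with
  | _ n ih =>
  intro ι _ _ hn G h hA
  refine h.le_W fun i ξ hξ u hu => h.cen_W hA hξ ?_ hu
  by_cases h2 : ∃ j l : {j // j ≠ i}, j ≠ l
  · obtain ⟨j, l, hjl⟩ := h2
    refine ih _ ?_ _ rfl _ (h.resid hξ) (h.not_alt hA hξ hjl)
    rw [← hn, Fintype.card_subtype_compl, Fintype.card_subtype_eq]
    have : 0 < Fintype.card ι := Fintype.card_pos_iff.2 ⟨i⟩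
    omega
  · push Not at h2
    intro r _
    refine mem_W_of_adj h.h5 (fun γ δ ⟨j, hj⟩ => ⟨j, fun e => hj.1 ?_, fun l hl => ?_⟩)
      fun γ δ ⟨j, hj⟩ => ⟨j, fun e => hj.1 ?_, fun l hl => ?_⟩
    · rw [r.injective (show r γ = r δ from funext fun l => by rwa [h2 l j])]
    · exact absurd (h2 l j) hl
    · rw [show γ = δ from funext fun l => by rwa [h2 l j]]
    · exact absurd (h2 l j) hl

theorem Hyp.main (h : Hyp G) : G ≤ W ι Λ ∨ alternatingGroup (ι → Λ) ≤ G := by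
  by_cases hA : alternatingGroup (ι → Λ) ≤ G
  · exact Or.inr hA
  · exact Or.inl (main_aux _ ι rfl G h hA)

theorem exists_not_W (h5 : 5 ≤ Fintype.card Λ) (hk : 2 ≤ Fintype.card ι) :
    ∃ g ∈ alternatingGroup (ι → Λ), g ∉ W ι Λ := by
  obtain ⟨a⟩ : Nonempty Λ := Fintype.card_pos_iff.1 (by omega)
  obtain ⟨i⟩ : Nonempty ι := Fintype.card_pos_iff.1 (by omega)
  have hp : 5 ≤ Fintype.card Λ ^ (Fintype.card ι - 1) := h5.trans (Nat.le_self_pow (by omega) _)
  obtain ⟨g, h3, -⟩ := exists_c3'' (Λ := ι → Λ) (by rw [card_om i]; nlinarith) (fun _ => a)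
    (fun _ => a)
  refine ⟨g, h3.mem_alternatingGroup, fun ⟨π, τ, h⟩ => ?_⟩
  have hc := h3.card_support
  have hπ : ∀ l, π.symm l = l := by
    intro l
    by_contra hl
    have := card_fix_le h hl
    rw [Finset.card_compl, hc, card_om l] at this
    have h2 := Nat.mul_le_mul_right (Fintype.card Λ ^ (Fintype.card ι - 1)) h5
    omega
  have h' : ∀ f l, g f l = τ l (f l) := fun f l => by rw [h, hπ]
  obtain ⟨γ, hγ⟩ := Finset.card_pos.1 (show 0 < g.support.card by omega)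
  obtain ⟨j, hj⟩ := Function.ne_iff.1 (Perm.mem_support.1 hγ)
  have sub : (co j (τ j)).support ⊆ g.support := fun δ hδ => by
    rw [Perm.mem_support] at hδ ⊢
    exact fun e => hδ (co_fix.2 (by rw [← h', e]))
  have le := Finset.card_le_card sub
  rw [card_support_co, hc] at le
  have : 0 < (τ j).support.card := Finset.card_pos.2 ⟨γ j, Perm.mem_support.2 (by rwa [← h'])⟩
  nlinarith

/-! ### Signs -/

theorem sign_invol {α : Type*} [Fintype α] [DecidableEq α] {σ : Perm α} (h : σ ^ 2 = 1) {j : ℕ}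
    (hj : σ.support.card = j * 2) : sign σ = (-1) ^ j := by
  by_cases e : σ = 1
  · subst e
    obtain rfl : j = 0 := by simp at hj; omega
    simp
  obtain ⟨k, -, h1, h2⟩ := Cfsg.Lib.Perm.exists_card_support_eq Nat.prime_two
    (orderOf_eq_prime h e)
  obtain rfl : k = j := by omega
  rw [sign_of_cycleType, h1]
  simp [pow_add, mul_comm k 2, pow_mul]

theorem sign_co_even (i : ι) {ρ : Perm Λ} (h : ρ ∈ alternatingGroup Λ) : sign (co i ρ) = 1 := by
  have : alternatingGroup Λ ≤ (alternatingGroup (ι → Λ)).comap (co i) := by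
    rw [← closure_three_cycles_eq_alternating, Subgroup.closure_le]
    intro σ hσ
    have h3 : sign (co i σ) ^ 3 = 1 := by
      rw [← map_pow, ← map_pow, ← IsThreeCycle.orderOf hσ, pow_orderOf_eq_one]; simp
    change sign (co i σ) = 1
    rcases Int.units_eq_one_or (sign (co i σ)) with e | e
    · exact e
    · rw [e] at h3; exact absurd h3 (by decide)
  exact this h

theorem sign_co_swap (i : ι) {a b : Λ} (h : a ≠ b) :
    sign (co i (swap a b)) = (-1) ^ (Fintype.card Λ ^ (Fintype.card ι - 1)) :=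
  sign_invol (by rw [← map_pow, pow_two, swap_mul_self, map_one])
    (by rw [card_support_co, card_support_swap h, mul_comm])

theorem sign_co_of_even (he : Even (Fintype.card Λ)) (hk : 2 ≤ Fintype.card ι) (i : ι)
    (ρ : Perm Λ) : sign (co i ρ) = 1 := by
  induction ρ using swap_induction_on with
  | one => simp
  | swap_mul f x y hxy ih =>
    rw [map_mul, map_mul, ih, sign_co_swap i hxy, mul_one]
    exact ((Nat.even_pow' (by omega)).2 he).neg_one_pow

theorem card_support_tp {i j : ι} (h : i ≠ j) :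
    (tp (swap i j) : Perm (ι → Λ)).support.card =
      (Fintype.card Λ - 1) * Fintype.card Λ ^ (Fintype.card ι - 1) := by
  have : (tp (swap i j) : Perm (ι → Λ)).supportᶜ.card =
      Fintype.card Λ ^ (Fintype.card ι - 1) := by
    refine le_antisymm (card_fix_le (wr_tp _) (l := i) (by simpa using h.symm)) ?_
    rw [← card_Z i, ← Finset.card_univ]
    refine Finset.card_le_card_of_injOn (fun z => ext i (z ⟨j, h.symm⟩) z) (fun z _ => ?_)
      fun z _ z' _ e => by simpa using congrArg (res i) e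
    simp only [Finset.coe_compl, Set.mem_compl_iff, Finset.mem_coe, Perm.mem_support, not_not]
    funext l
    rw [wr_tp, symm_swap]
    by_cases a1 : l = i
    · subst a1; simp [ext, h.symm]
    by_cases a2 : l = j
    · subst a2; simp [ext, a1]
    · simp [swap_apply_of_ne_of_ne a1 a2]
  have h2 := Finset.card_add_card_compl (tp (swap i j) : Perm (ι → Λ)).support
  rw [this, card_om i] at h2
  rw [Nat.sub_mul]; omega

theorem exists_even_top (h5 : 5 ≤ Fintype.card Λ) (hk : 2 ≤ Fintype.card ι)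
    (hne : ¬ (Fintype.card ι = 2 ∧ Fintype.card Λ % 4 = 2)) (π : Perm ι) :
    ∃ g : Perm (ι → Λ), sign g = 1 ∧ ∃ τ, Wr g π τ := by
  induction π using swap_induction_on with
  | one => exact ⟨1, by simp, 1, fun _ _ => rfl⟩
  | swap_mul f x y hxy ih =>
    obtain ⟨g, hg, τ, hw⟩ := ih
    suffices ∃ g : Perm (ι → Λ), sign g = 1 ∧ ∃ τ, Wr g (swap x y) τ by
      obtain ⟨g', hg', τ', hw'⟩ := this
      exact ⟨g' * g, by simp [hg, hg'], _, hw'.mul hw⟩
    rcases Nat.even_or_odd (Fintype.card Λ) with he | ho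
    · refine ⟨tp (swap x y), ?_, _, wr_tp _⟩
      have h4 : 4 ∣ Fintype.card Λ ^ (Fintype.card ι - 1) := by
        rcases hk.eq_or_lt with e | e
        · have := Nat.even_iff.1 he
          rw [← e, pow_one]; omega
        · exact (pow_dvd_pow_of_dvd he.two_dvd 2).trans (pow_dvd_pow _ (by omega))
      obtain ⟨c, hc⟩ := h4
      rw [sign_invol (j := 2 * ((Fintype.card Λ - 1) * c)) (by
        ext f l
        rw [pow_two, Perm.mul_apply, wr_tp, wr_tp]; simp) (by rw [card_support_tp hxy, hc]; ring)]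
      simp
    · rcases Int.units_eq_one_or (sign (tp (swap x y) : Perm (ι → Λ))) with e | e
      · exact ⟨_, e, _, wr_tp _⟩
      · obtain ⟨a, b, hab⟩ := Fintype.exists_pair_of_one_lt_card (α := Λ) (by omega)
        refine ⟨co x (swap a b) * tp (swap x y), ?_, _,
          by simpa using (wr_co x (swap a b)).mul (wr_tp (swap x y))⟩
        rw [map_mul, e, sign_co_swap x hab, ho.pow.neg_one_pow]; simp

theorem coatom_alt (h5 : 5 ≤ Fintype.card Λ) (hk : 2 ≤ Fintype.card ι)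
    (hne : ¬ (Fintype.card ι = 2 ∧ Fintype.card Λ % 4 = 2)) :
    IsCoatom ((W ι Λ).subgroupOf (alternatingGroup (ι → Λ))) := by
  constructor
  · intro e
    obtain ⟨g, h1, h2⟩ := exists_not_W h5 hk
    exact h2 (Subgroup.subgroupOf_eq_top.1 e h1)
  intro M hM
  have mem : ∀ g ∈ W ι Λ, sign g = 1 → g ∈ M.map (alternatingGroup (ι → Λ)).subtype :=
    fun g a b => ⟨⟨g, b⟩, hM.le a, rfl⟩
  have hy : Hyp (M.map (alternatingGroup (ι → Λ)).subtype) :=
    { h5 := h5
      even := fun i ρ hρ => mem _ (co_mem_W _ _) (sign_co_even i hρ)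
      six := fun h6 i ρ => mem _ (co_mem_W _ _) (sign_co_of_even (by rw [h6]; decide) hk i ρ)
      top := fun π => by
        obtain ⟨g, hg, τ, hw⟩ := exists_even_top h5 hk hne π
        exact ⟨g, mem g ⟨_, _, hw⟩ hg, τ, hw⟩ }
  rcases hy.main with e | e
  · exact absurd (fun g hg => e ⟨g, hg, rfl⟩) hM.not_ge
  · refine eq_top_iff.2 fun g _ => ?_
    obtain ⟨g', a, b⟩ := e g.2
    rwa [← Subtype.ext b]

theorem coatom_sym (h5 : 5 ≤ Fintype.card Λ) (hk : 2 ≤ Fintype.card ι) {σ : Perm (ι → Λ)}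
    (hσ : sign σ = -1) (hW : σ ∈ W ι Λ) : IsCoatom (W ι Λ) := by
  constructor
  · intro e
    obtain ⟨g, -, h2⟩ := exists_not_W h5 hk
    exact h2 (e ▸ Subgroup.mem_top g)
  intro M hM
  have hy : Hyp M :=
    { h5 := h5
      even := fun i ρ _ => hM.le (co_mem_W _ _)
      six := fun _ i ρ => hM.le (co_mem_W _ _)
      top := fun π => ⟨tp π, hM.le ⟨_, _, wr_tp π⟩, _, wr_tp π⟩ }
  rcases hy.main with e | e
  · exact absurd e hM.not_ge
  · refine eq_top_iff.2 fun g _ => ?_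
    rcases Int.units_eq_one_or (sign g) with a | a
    · exact e a
    · have : g * σ⁻¹ ∈ M := e (by simp [mem_alternatingGroup, a, hσ])
      simpa using mul_mem this (hM.le hW)

end Cfsg.Lib.PA
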