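import Cfsg.Agent.Lib.PA.Basic

/-! Invariant equivalence relations on the product; primitivity; no invariant abelian groups. -/

namespace Cfsg.Lib.PA
open Equiv Equiv.Perm Function MulAction
open scoped Pointwise

variable {ι Λ : Type*} [DecidableEq ι] [Fintype Λ] [DecidableEq Λ]
variable {r : (ι → Λ) → (ι → Λ) → Prop}

/-- `r` is invariant under `g`. -/
def InvBy (r : (ι → Λ) → (ι → Λ) → Prop) (g : Perm (ι → Λ)) : Prop :=
  ∀ γ δ, r γ δ → r (g γ) (g δ)

/-- `r` is invariant under the even permutations in coordinate `j`. -/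
def InvAt (r : (ι → Λ) → (ι → Λ) → Prop) (j : ι) : Prop :=
  ∀ ρ ∈ alternatingGroup Λ, InvBy r (co j ρ)

/-- The line through `δ` in direction `j` lies in one class. -/
def Good (r : (ι → Λ) → (ι → Λ) → Prop) (j : ι) (δ : ι → Λ) : Prop := ∀ p, r δ (update δ j p)

theorem good_of_rel (h5 : 5 ≤ Fintype.card Λ) (he : Equivalence r) {j : ι} (hi : InvAt r j)
    {γ γ' : ι → Λ} (h : r γ γ') (hj : γ j ≠ γ' j) : Good r j γ := by
  have h1 : ∀ p, p ≠ γ' j → r γ (update γ j p) := by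
    intro p hp
    obtain ⟨ρ, r1, r2, r3⟩ := exists_even h5 hj.symm hp.symm
    have := hi ρ r1 _ _ h
    rw [co_fix.2 r3, co_apply, r2] at this
    exact he.trans h (he.symm this)
  intro p
  by_cases hp : p = γ' j
  · obtain ⟨e, e1, e2, -, -⟩ := exists_ne4 h5 (γ j) (γ' j) p p
    obtain ⟨ρ, r1, r2, r3⟩ := exists_even h5 e1.symm hj
    have := hi ρ r1 _ _ (h1 e e2)
    rw [co_fix.2 r3, co_apply, update_self, r2, update_idem] at this
    rwa [hp]
  · exact h1 p hp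

theorem Good.upd (h5 : 5 ≤ Fintype.card Λ) (he : Equivalence r) {j l : ι} (hi : InvAt r l)
    {δ : ι → Λ} (h : Good r j δ) (q : Λ) : Good r j (update δ l q) := by
  intro p
  by_cases e : l = j
  · subst e
    rw [update_idem]
    exact he.trans (he.symm (h q)) (h p)
  · obtain ⟨ρ, r1, r2⟩ := exists_even' h5 (δ l) q
    have := hi ρ r1 _ _ (h p)
    rwa [co_apply, co_apply, update_of_ne e, r2, update_comm (Ne.symm e)] at this

omit [Fintype Λ] [DecidableEq Λ] in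
theorem Good.top {g : Perm (ι → Λ)} {π : Perm ι} {τ : ι → Perm Λ} (hw : Wr g π τ)
    (hi : InvBy r g) {j : ι} {δ : ι → Λ} (h : Good r j δ) : Good r (π j) (g δ) := by
  intro p
  have := hi _ _ (h ((τ (π j))⁻¹ p))
  rw [hw.update] at this
  simpa using this

variable [Fintype ι]

theorem layer_rel (h5 : 5 ≤ Fintype.card Λ) (he : Equivalence r) (S : ι → Prop)
    (hi : ∀ l, S l → InvAt r l) {γ γ' : ι → Λ} {j : ι} (hj : S j) (h : r γ γ') (hne : γ j ≠ γ' j)
    (ht : ∀ l, S l → ∃ g π τ, Wr g π τ ∧ π j = l ∧ InvBy r g ∧ ∀ t, ¬ S t → g γ t = γ t)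
    {δ : ι → Λ} (hδ : ∀ t, ¬ S t → δ t = γ t) : r γ δ := by
  have h0 := good_of_rel h5 he (hi j hj) h hne
  have h1 : ∀ l, S l → ∀ δ : ι → Λ, (∀ t, ¬ S t → δ t = γ t) → Good r l δ := by
    intro l hl δ hδ
    obtain ⟨g, π, τ, hw, hπ, hg, hγ⟩ := ht l hl
    have := h0.top hw hg
    rw [hπ] at this
    exact conn (P := Good r l) S (fun δ t q ht' hδ => hδ.upd h5 he (hi t ht') q) this
      fun t ht' => (hδ t ht').trans (hγ t ht').symm
  refine (conn (P := fun δ => r γ δ ∧ ∀ t, ¬ S t → δ t = γ t) S ?_ ⟨he.refl γ, fun _ _ => rfl⟩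
    hδ).1
  rintro δ l q hl ⟨a1, a2⟩
  refine ⟨he.trans a1 (h1 l hl δ a2 q), fun t ht' => ?_⟩
  rw [update_of_ne (fun e : t = l => ht' (e ▸ hl)), a2 t ht']

/-- The orbit relation of a subgroup. -/
def Orb (N : Subgroup (Perm (ι → Λ))) (γ δ : ι → Λ) : Prop := ∃ u ∈ N, u γ = δ

omit [DecidableEq ι] [Fintype Λ] [DecidableEq Λ] [Fintype ι] in
theorem orb_equiv (N : Subgroup (Perm (ι → Λ))) : Equivalence (Orb N) where
  refl γ := ⟨1, N.one_mem, rfl⟩
  symm := fun ⟨u, hu, h⟩ => ⟨u⁻¹, N.inv_mem hu, by rw [← h]; simp⟩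
  trans := fun ⟨u, hu, h⟩ ⟨v, hv, h'⟩ => ⟨v * u, N.mul_mem hv hu, by rw [← h', ← h]; rfl⟩

omit [DecidableEq ι] [Fintype Λ] [DecidableEq Λ] [Fintype ι] in
theorem orb_inv {N : Subgroup (Perm (ι → Λ))} {g : Perm (ι → Λ)}
    (h : ∀ u ∈ N, g * u * g⁻¹ ∈ N) : InvBy (Orb N) g := by
  rintro γ δ ⟨u, hu, rfl⟩
  exact ⟨_, h u hu, by simp⟩

variable {G : Subgroup (Perm (ι → Λ))}

theorem Hyp.orb (h : Hyp G) (γ δ : ι → Λ) : Orb G γ δ := by
  refine conn (P := Orb G γ) (fun _ => True) ?_ ((orb_equiv G).refl γ) (by simp)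
  intro δ l q _ hδ
  obtain ⟨ρ, r1, r2⟩ := exists_even' h.h5 (δ l) q
  exact (orb_equiv G).trans hδ ⟨co l ρ, h.even _ _ r1, by rw [co_apply, r2]⟩

theorem Hyp.prim (h : Hyp G) : IsPreprimitive G (ι → Λ) where
  exists_smul_eq γ δ := by
    obtain ⟨u, hu, e⟩ := h.orb γ δ
    exact ⟨⟨u, hu⟩, e⟩
  isTrivialBlock_of_isBlock {B} hB := by
    by_cases hs : B.Subsingleton
    · exact Or.inl hs
    right
    obtain ⟨γ, hγ, γ', hγ', hne⟩ := Set.not_subsingleton_iff.1 hs
    obtain ⟨j, hj⟩ := Function.ne_iff.1 hne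
    let r : (ι → Λ) → (ι → Λ) → Prop := fun a b => ∃ g : G, a ∈ g • B ∧ b ∈ g • B
    have he : Equivalence r := by
      refine ⟨fun a => ?_, fun ⟨g, a, b⟩ => ⟨g, b, a⟩, fun ⟨g, a, b⟩ ⟨g', c, d⟩ => ⟨g, a, ?_⟩⟩
      · obtain ⟨u, hu, e⟩ := h.orb γ a
        exact ⟨⟨u, hu⟩, ⟨γ, hγ, e⟩, ⟨γ, hγ, e⟩⟩
      · rcases hB.smul_eq_smul_or_disjoint g g' with e | e
        · rwa [e]
        · exact absurd c (Set.disjoint_left.1 e b)
    have hi : ∀ u ∈ G, InvBy r u := by
      rintro u hu a b ⟨g, ha, hb⟩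
      refine ⟨⟨u, hu⟩ * g, ?_, ?_⟩ <;> rw [mul_smul]
      · exact Set.smul_mem_smul_set (a := (⟨u, hu⟩ : G)) ha
      · exact Set.smul_mem_smul_set (a := (⟨u, hu⟩ : G)) hb
    refine Set.eq_univ_of_forall fun δ => ?_
    obtain ⟨g, h1, h2⟩ : r γ δ := by
      refine layer_rel h.h5 he (fun _ => True) (fun l _ ρ hρ => hi _ (h.even l ρ hρ)) trivial
        ⟨1, by simpa using hγ, by simpa using hγ'⟩ hj (fun l _ => ?_) (by simp)
      obtain ⟨g, hg, τ, hw⟩ := h.top (swap j l)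
      exact ⟨g, _, τ, hw, by simp, hi g hg, by simp⟩
    rcases hB.smul_eq_or_disjoint g with e | e
    · rwa [e] at h2
    · exact absurd hγ (Set.disjoint_left.1 e h1)

omit [Fintype ι] in
/-- A point fixed by all three-cycles in coordinate `l` fixing two given letters. -/
theorem mem_of_fix (h5 : 5 ≤ Fintype.card Λ) {a x y : Λ}
    (h : ∀ ρ : Perm Λ, ρ.IsThreeCycle → ρ x = x → ρ y = y → ρ a = a) : a = x ∨ a = y := by
  by_contra hc
  push Not at hc
  obtain ⟨ρ, r1, r2, r3, r4⟩ := exists_c3' h5 hc.1.symm hc.2.symm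
  exact r2 (h ρ r1 r3 r4)

omit [Fintype ι] in
/-- A commutative group normalised by the socle is trivial. -/
theorem ab_triv (h5 : 5 ≤ Fintype.card Λ) {R : Subgroup (Perm (ι → Λ))}
    (hc : ∀ a ∈ R, ∀ b ∈ R, a * b = b * a)
    (hn : ∀ j, ∀ ρ ∈ alternatingGroup Λ, ∀ u ∈ R, co j ρ * u * (co j ρ)⁻¹ ∈ R) :
    ∀ u ∈ R, u = 1 := by
  intro u0 hu0
  by_contra hne
  obtain ⟨γ, hγ⟩ : ∃ γ, γ ≠ u0 γ := by
    by_contra hc'
    push Not at hc'
    exact hne (Equiv.ext fun γ => (hc' γ).symm)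
  obtain ⟨j, hj⟩ := Function.ne_iff.1 hγ
  have hg := good_of_rel h5 (orb_equiv R) (fun ρ hρ => orb_inv (hn j ρ hρ)) ⟨u0, hu0, rfl⟩ hj
  have reg : ∀ v ∈ R, v γ = γ → ∀ δ, Orb R γ δ → v δ = δ := by
    rintro v hv h _ ⟨w, hw, rfl⟩
    rw [← Perm.mul_apply, hc v hv w hw, Perm.mul_apply, h]
  obtain ⟨p, hp, -⟩ := exists_ne4 h5 (γ j) (γ j) (γ j) (γ j)
  obtain ⟨u, hu, hup⟩ := hg p
  have com : ∀ l (ρ : Perm Λ), ρ.IsThreeCycle → co l ρ γ = γ → co l ρ (u γ) = u γ →
      ∀ δ, Orb R γ δ → co l ρ (u δ) = u (co l ρ δ) := by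
    intro l ρ h3 h1 h2 δ hδ
    have hm := hn l ρ h3.mem_alternatingGroup
    have h4 : (co l ρ)⁻¹ γ = γ := by rw [Perm.inv_eq_iff_eq, h1]
    have := reg _ (R.mul_mem (R.inv_mem hu) (hm u hu)) (by
      simp only [Perm.mul_apply, h4, h2]; simp) (co l ρ δ) (by
      have := orb_inv hm _ _ hδ
      rwa [h1] at this)
    simp only [Perm.mul_apply] at this
    rw [Perm.inv_eq_iff_eq] at this
    simpa using this
  -- images of points of the line stay on the line
  have ln : ∀ q l, l ≠ j → u (update γ j q) l = γ l := by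
    intro q l hl
    have := mem_of_fix h5 (a := u (update γ j q) l) (x := γ l) (y := γ l) fun ρ h3 h1 _ => by
      have := com l ρ h3 (co_fix.2 h1) (co_fix.2 (by rwa [hup, update_of_ne hl])) _ (hg q)
      rw [co_fix.2 (show ρ (update γ j q l) = _ by rwa [update_of_ne hl])] at this
      exact co_fix.1 this
    tauto
  have ln' : ∀ q, u (update γ j q) = update γ j (u (update γ j q) j) := by
    intro q
    funext l
    by_cases hl : l = j
    · subst hl; simp
    · rw [ln q l hl, update_of_ne hl]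
  have fpf : ∀ q, u (update γ j q) ≠ update γ j q := by
    intro q h
    obtain ⟨w, hw, e⟩ := hg q
    rw [← e, ← Perm.mul_apply, hc u hu w hw, Perm.mul_apply, w.injective.eq_iff, hup] at h
    exact hp (by simpa using congrFun h j)
  have comj : ∀ (ρ : Perm Λ), ρ.IsThreeCycle → ρ (γ j) = γ j → ρ p = p → ∀ q,
      update γ j (ρ (u (update γ j q) j)) = u (update γ j (ρ q)) := by
    intro ρ h3 h1 h2 q
    have := com j ρ h3 (co_fix.2 h1) (co_fix.2 (by rwa [hup, update_self])) _ (hg q)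
    rwa [co_apply, co_apply, update_self, update_idem, ln' q, update_idem, update_self] at this
  have sq : u (update γ j p) = γ := by
    rcases mem_of_fix h5 (a := u (update γ j p) j) (x := γ j) (y := p) fun ρ h3 h1 h2 => by
      have := congrFun (comj ρ h3 h1 h2 p) j
      rwa [update_self, h2] at this with e | e
    · rw [ln' p, e, update_eq_self]
    · exact absurd (by rw [ln' p, e]) (fpf p)
  obtain ⟨q, q1, q2, -⟩ := exists_ne4 h5 (γ j) p p p
  set d := u (update γ j q) j with hd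
  have d1 : d ≠ γ j := by
    intro e
    have : u (update γ j q) = u (update γ j p) := by rw [ln' q, ← hd, e, update_eq_self, sq]
    exact q2 (by simpa using congrFun (u.injective this) j)
  have d2 : d ≠ p := by
    intro e
    have : u (update γ j q) = u γ := by rw [ln' q, ← hd, e, hup]
    exact q1 (by simpa using congrFun (u.injective this) j)
  have d3 : d ≠ q := fun e => fpf q (by rw [ln' q, ← hd, e])
  obtain ⟨e, e1, e2, e3, e4⟩ := exists_ne4 h5 (γ j) p q d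
  have h1 := comj (c3 q d e) (c3_three d3.symm e3.symm e4.symm) (c3_ne q1.symm d1.symm e1.symm)
    (c3_ne q2.symm d2.symm e2.symm) q
  rw [← hd, c3_b, c3_a d3.symm e4.symm] at h1
  have h2 := reg (u * u) (R.mul_mem hu hu) (by rw [Perm.mul_apply, hup, sq]) _ (hg q)
  rw [Perm.mul_apply, ln' q, ← hd, ← h1] at h2
  exact e3 (by simpa using congrFun h2 j)

end Cfsg.Lib.PA
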