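import Cfsg.Agent.Lib.PA.Rel
import Cfsg.Agent.Lib.Perm.JordanSet2

/-! Restriction to the remaining coordinates; elements supported on few layers. -/

namespace Cfsg.Lib.PA
open Equiv Equiv.Perm Function MulAction

variable {ι Λ : Type*} [DecidableEq ι] [Fintype Λ] [DecidableEq Λ] [Fintype ι]

/-- `u` preserves the layers over `E` and induces `r` on the remaining coordinates there. -/
def Acts (u : Perm (ι → Λ)) (i : ι) (E : Finset Λ) (r : Perm ({j // j ≠ i} → Λ)) : Prop :=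
  ∀ γ, γ i ∈ E → u γ i ∈ E ∧ res i (u γ) = r (res i γ)

variable {i : ι} {E : Finset Λ} {u v : Perm (ι → Λ)} {r s : Perm ({j // j ≠ i} → Λ)}

omit [DecidableEq ι] [DecidableEq Λ] in
theorem inv_mem_layers (h : ∀ γ, γ i ∈ E → u γ i ∈ E) (γ : ι → Λ) (hγ : γ i ∈ E) :
    u⁻¹ γ i ∈ E :=
  perm_symm_mapsTo_of_mapsTo u (s := {γ | γ i ∈ E}) h hγ

omit [DecidableEq ι] [Fintype Λ] [DecidableEq Λ] [Fintype ι] in
theorem Acts.mul (h1 : Acts u i E r) (h2 : Acts v i E s) : Acts (u * v) i E (r * s) := by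
  intro γ hγ
  obtain ⟨a1, a2⟩ := h2 γ hγ
  obtain ⟨b1, b2⟩ := h1 _ a1
  exact ⟨b1, by rw [Perm.mul_apply, b2, a2, Perm.mul_apply]⟩

omit [DecidableEq ι] [DecidableEq Λ] in
theorem Acts.inv (h1 : Acts u i E r) : Acts u⁻¹ i E r⁻¹ := by
  intro γ hγ
  have a1 := inv_mem_layers (fun γ h => (h1 γ h).1) γ hγ
  refine ⟨a1, ?_⟩
  rw [Perm.eq_inv_iff_eq, ← (h1 _ a1).2]
  simp

omit [Fintype Λ] [DecidableEq Λ] [Fintype ι] in
theorem acts_co {j : ι} (h : j ≠ i) (ρ : Perm Λ) :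
    Acts (co j ρ) i E (co (⟨j, h⟩ : {j // j ≠ i}) ρ) :=
  fun γ hγ => ⟨by rwa [co_ne h.symm], res_co h ρ γ⟩

omit [DecidableEq Λ] in
theorem exists_acts {a : Λ} (ha : a ∈ E) (h1 : ∀ γ, γ i ∈ E → u γ i ∈ E)
    (h2 : ∀ γ δ, γ i ∈ E → δ i ∈ E → res i γ = res i δ → res i (u γ) = res i (u δ)) :
    ∃ r, Acts u i E r := by
  have key : ∀ γ, γ i ∈ E → res i (u γ) = res i (u (ext i a (res i γ))) :=
    fun γ hγ => h2 _ _ hγ (by simpa using ha) (by simp)
  have hs : Surjective fun z => res i (u (ext i a z)) := by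
    intro z
    refine ⟨res i (u⁻¹ (ext i a z)), ?_⟩
    simp only
    rw [← key _ (inv_mem_layers h1 _ (by simpa using ha))]
    simp
  exact ⟨Equiv.ofBijective _ (Finite.surjective_iff_bijective.1 hs),
    fun γ hγ => ⟨h1 γ hγ, key γ hγ⟩⟩

/-- The group induced on the remaining coordinates. -/
def Res (N : Subgroup (Perm (ι → Λ))) (i : ι) (E : Finset Λ) :
    Subgroup (Perm ({j // j ≠ i} → Λ)) where
  carrier := {r | ∃ u ∈ N, Acts u i E r}
  one_mem' := ⟨1, N.one_mem, fun _ h => ⟨h, rfl⟩⟩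
  mul_mem' := fun ⟨_, a, b⟩ ⟨_, c, d⟩ => ⟨_, N.mul_mem a c, b.mul d⟩
  inv_mem' := fun ⟨_, a, b⟩ => ⟨_, N.inv_mem a, b.inv⟩

theorem ab_res (h5 : 5 ≤ Fintype.card Λ) {N : Subgroup (Perm (ι → Λ))}
    (hn : ∀ j, j ≠ i → ∀ ρ ∈ alternatingGroup Λ, ∀ u ∈ N, co j ρ * u * (co j ρ)⁻¹ ∈ N)
    (hc : ∀ u ∈ N, ∀ v ∈ N, ∀ γ, γ i ∈ E → res i (u (v γ)) = res i (v (u γ)))
    (hu : u ∈ N) (hr : Acts u i E r) {γ : ι → Λ} (hγ : γ i ∈ E) : res i (u γ) = res i γ := by
  have : r = 1 := by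
    refine ab_triv h5 (R := Res N i E) ?_ ?_ r ⟨u, hu, hr⟩
    · rintro a ⟨u, hu, ha⟩ b ⟨v, hv, hb⟩
      ext1 z
      have h0 : ext i (γ i) z i ∈ E := by simpa using hγ
      have h1 := ((ha.mul hb) _ h0).2
      have h2 := ((hb.mul ha) _ h0).2
      rw [res_ext] at h1 h2
      rw [← h1, ← h2]
      exact hc u hu v hv _ h0
    · rintro j ρ hρ a ⟨u, hu, ha⟩
      exact ⟨_, hn j j.2 ρ hρ u hu, ((acts_co j.2 ρ).mul ha).mul (acts_co j.2 ρ).inv⟩
  rw [(hr γ hγ).2, this, Perm.one_apply]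

/-- Elements of `G` supported on the layers over `E`. -/
def Sup (G : Subgroup (Perm (ι → Λ))) (i : ι) (E : Finset Λ) : Subgroup (Perm (ι → Λ)) where
  carrier := {u | u ∈ G ∧ ∀ γ, γ i ∉ E → u γ = γ}
  one_mem' := ⟨G.one_mem, fun _ _ => rfl⟩
  mul_mem' := fun ⟨a, b⟩ ⟨c, d⟩ => ⟨G.mul_mem a c, fun γ h => by
    rw [Perm.mul_apply, d γ h, b γ h]⟩
  inv_mem' := fun ⟨a, b⟩ => ⟨G.inv_mem a, fun γ h => by rw [Perm.inv_eq_iff_eq, b γ h]⟩

variable {G : Subgroup (Perm (ι → Λ))}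

omit [DecidableEq ι] [Fintype Λ] [DecidableEq Λ] [Fintype ι] in
theorem sup_mem (hu : u ∈ Sup G i E) {γ : ι → Λ} (h : γ i ∈ E) : u γ i ∈ E := by
  by_contra hc
  have := u.injective (hu.2 _ hc)
  rw [this] at hc
  exact hc h

omit [DecidableEq ι] [Fintype Λ] [DecidableEq Λ] [Fintype ι] in
theorem sup_conj {g : Perm (ι → Λ)} {E' : Finset Λ} (hg : g ∈ G)
    (h : ∀ γ, γ i ∈ E → g γ i ∈ E') (hu : u ∈ Sup G i E) : g * u * g⁻¹ ∈ Sup G i E' := by
  refine ⟨G.mul_mem (G.mul_mem hg hu.1) (G.inv_mem hg), fun γ hγ => ?_⟩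
  have : g⁻¹ γ i ∉ E := fun hc => hγ (by simpa using h _ hc)
  rw [Perm.mul_apply, Perm.mul_apply, hu.2 _ this]; simp

theorem Hyp.layer (h : Hyp G) {c d : Λ} (hcd : c ≠ d) (hc : c ∉ E) (hd : d ∉ E)
    (hu : u ∈ Sup G i E) {γ : ι → Λ} {j : ι} (hj : j ≠ i) (hne : u γ j ≠ γ j) {δ : ι → Λ}
    (hδ : δ i = γ i) : Orb (Sup G i E) γ δ := by
  have hγ : γ i ∈ E := by
    by_contra hc; exact hne (by rw [hu.2 _ hc])
  refine layer_rel h.h5 (orb_equiv _) (· ≠ i) (fun l hl ρ hρ => orb_inv fun v hv =>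
    sup_conj (h.even l ρ hρ) (fun γ hγ => by rwa [co_ne hl.symm]) hv) hj ⟨u, hu, rfl⟩ hne.symm
    (fun l hl => ?_) (fun t ht => by rw [not_not.1 ht, hδ])
  obtain ⟨g, hg, τ, hw, hτ⟩ := h.top' (swap j l) i hcd
  have hi : ∀ γ : ι → Λ, γ i ∈ E → g γ i = γ i := by
    intro γ hγ
    rw [hw, symm_swap, swap_apply_of_ne_of_ne hj.symm hl.symm]
    rcases hτ with e | e <;> rw [e]
    · rfl
    · exact swap_apply_of_ne_of_ne (fun e => hc (e ▸ hγ)) (fun e => hd (e ▸ hγ))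
  exact ⟨g, _, τ, hw, by simp, orb_inv fun v hv => sup_conj hg (fun γ hγ => by rwa [hi γ hγ]) hv,
    fun t ht => by rw [not_not.1 ht, hi γ hγ]⟩

theorem Hyp.jordan (h : Hyp G) (hE : 2 * E.card < Fintype.card Λ) {j : ι} (hj : j ≠ i)
    {γ : ι → Λ} (hγ : γ i ∈ E) (ht : ∀ δ, δ i ∈ E → Orb (Sup G i E) γ δ) :
    alternatingGroup (ι → Λ) ≤ G := by
  apply IsMultiplyPretransitive.alternatingGroup_le
  have h5 := h.h5
  have hk : 1 < Fintype.card ι := Fintype.one_lt_card_iff.2 ⟨j, i, hj⟩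
  have hp : 5 ≤ Fintype.card Λ ^ (Fintype.card ι - 1) :=
    h5.trans (Nat.le_self_pow (by omega) _)
  have hE0 : 0 < E.card := Finset.card_pos.2 ⟨_, hγ⟩
  rw [Nat.card_eq_fintype_card]
  refine Cfsg.Lib.Perm.marggraf _ rfl h.prim
    (Γ := Finset.univ.filter fun γ : ι → Λ => γ i ∈ E) ?_ ?_ ?_
  · intro x hx y hy
    simp only [Finset.coe_filter, Finset.mem_univ, true_and, Set.mem_setOf_eq] at hx hy
    obtain ⟨g, hg, e⟩ := (orb_equiv _).trans ((orb_equiv _).symm (ht x hx)) (ht y hy)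
    exact ⟨⟨g, hg.1⟩, fun z hz => hg.2 z (by simpa using hz), e⟩
  · rw [card_layers]; nlinarith
  · rw [card_layers, card_om i]; nlinarith

variable (h : Hyp G) (hA : ¬ alternatingGroup (ι → Λ) ≤ G)
include h hA

theorem Hyp.s1 {a : Λ} (hu : u ∈ Sup G i {a}) {j : ι} (hj : j ≠ i) (γ : ι → Λ) :
    u γ j = γ j := by
  by_contra hne
  have hγ : γ i ∈ ({a} : Finset Λ) := by
    by_contra hc; exact hne (by rw [hu.2 _ hc])
  obtain ⟨c, c1, -⟩ := exists_ne4 h.h5 a a a a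
  obtain ⟨d, d1, d2, -⟩ := exists_ne4 h.h5 a c c c
  refine hA (h.jordan (by have := h.h5; simp; omega) hj hγ fun δ hδ => ?_)
  exact h.layer d2.symm (by simpa using c1) (by simpa using d1) hu hj hne
    (by simp at hγ hδ; rw [hγ, hδ])

theorem Hyp.s2' {a b : Λ} (hab : a ≠ b) (hu : u ∈ Sup G i {a, b}) {j : ι} (hj : j ≠ i)
    (γ : ι → Λ) (hγ : γ i = a) : u γ j = γ j := by
  by_contra hne
  obtain ⟨c, c1, c2, -⟩ := exists_ne4 h.h5 a b b b
  obtain ⟨d, d1, d2, d3, -⟩ := exists_ne4 h.h5 a b c c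
  have hl : ∀ δ : ι → Λ, δ i = a → Orb (Sup G i {a, b}) γ δ := fun δ hδ =>
    h.layer d3.symm (by simp [c1, c2]) (by simp [d1, d2]) hu hj hne (by rw [hγ, hδ])
  have hn : ∀ l, l ≠ i → ∀ ρ ∈ alternatingGroup Λ, ∀ v ∈ Sup G i {a, b},
      co l ρ * v * (co l ρ)⁻¹ ∈ Sup G i {a, b} := fun l hl ρ hρ v hv =>
    sup_conj (h.even l ρ hρ) (fun γ hγ => by rwa [co_ne hl.symm]) hv
  by_cases hp : ∀ v ∈ Sup G i {a, b}, ∀ δ : ι → Λ, δ i = a → v δ i = a
  · have hp' : ∀ v ∈ Sup G i {a, b}, ∀ δ : ι → Λ, v δ i = δ i := by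
      intro v hv δ
      by_cases h1 : δ i = a
      · rw [hp v hv δ h1, h1]
      by_cases h2 : δ i = b
      · have h3 := sup_mem hv (γ := δ) (by simp [h2])
        simp only [Finset.mem_insert, Finset.mem_singleton] at h3
        rcases h3 with h3 | h3
        · exact absurd (by simpa using hp _ ((Sup G i {a, b}).inv_mem hv) _ h3) h1
        · rw [h3, h2]
      · rw [hv.2 δ (by simp [h1, h2])]
    obtain ⟨r, hr⟩ := exists_acts (u := u) (i := i) (Finset.mem_singleton_self a)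
      (fun δ hδ => by rwa [hp' u hu]) (fun δ δ' a1 a2 a3 => by
        rw [eq_of_res a3 (by simp at a1 a2; rw [a1, a2])])
    refine hne (res_eq_iff.1 (ab_res h.h5 hn ?_ hu hr (by simp [hγ])) j hj)
    intro v hv w hw δ hδ
    have hδ' : δ i = a := by simpa using hδ
    have hg := h.even i _ (c3_three c2.symm d2.symm d3.symm).mem_alternatingGroup
    set g := co i (c3 b c d) with hgd
    have hw' : g * w * g⁻¹ ∈ Sup G i {a, c} := sup_conj hg (fun ε hε => by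
      simp only [Finset.mem_insert, Finset.mem_singleton] at hε ⊢
      rw [hgd, co_same]
      rcases hε with e | e <;> rw [e]
      · exact Or.inl (c3_ne hab c1.symm d1.symm)
      · exact Or.inr (c3_a c2.symm d3.symm)) hw
    have hfix : ∀ ε : ι → Λ, ε i = a → g ε = ε := fun ε hε =>
      co_fix.2 (by rw [hε]; exact c3_ne hab c1.symm d1.symm)
    have hsame : ∀ ε : ι → Λ, ε i = a → (g * w * g⁻¹) ε = w ε := fun ε hε => by
      have : g⁻¹ ε = ε := by rw [Perm.inv_eq_iff_eq, hfix ε hε]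
      rw [Perm.mul_apply, Perm.mul_apply, this, hfix _ (by rw [hp' w hw, hε])]
    have hlay : ∀ ε : ι → Λ, (g * w * g⁻¹) ε i = ε i := fun ε => by
      rw [Perm.mul_apply, Perm.mul_apply, hgd, co_same, hp' w hw, co_inv_same]; simp
    generalize g * w * g⁻¹ = w' at hw' hsame hlay
    have hz : (w' * v)⁻¹ * (v * w') ∈ Sup G i {a} := by
      refine ⟨G.mul_mem (G.inv_mem (G.mul_mem hw'.1 hv.1)) (G.mul_mem hv.1 hw'.1), fun ε hε => ?_⟩
      have hε' : ε i ≠ a := by simpa using hε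
      rw [Perm.mul_apply, Perm.inv_eq_iff_eq, Perm.mul_apply, Perm.mul_apply]
      by_cases h2 : ε i = b
      · rw [hw'.2 ε (by simp [h2, hab.symm, c2.symm]),
          hw'.2 (v ε) (by simp [hp' v hv, h2, hab.symm, c2.symm])]
      · rw [hv.2 ε (by simp [hε', h2]), hv.2 (w' ε) (by simp [hlay, hε', h2])]
    have e1 : ((w' * v)⁻¹ * (v * w')) δ = δ := eq_of_res
      (res_eq_iff.2 fun l hl => h.s1 hA hz hl δ) (by
        have := sup_mem hz hδ
        simp at this; simp [this, hδ'])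
    rw [Perm.mul_apply, Perm.inv_eq_iff_eq, Perm.mul_apply, Perm.mul_apply, hsame δ hδ',
      hsame _ (by rw [hp' v hv, hδ'])] at e1
    rw [e1]
  · push Not at hp
    obtain ⟨v, hv, δ, hδ, hb⟩ := hp
    have hb' : v δ i = b := by
      have := sup_mem hv (γ := δ) (by simp [hδ])
      simpa [hb] using this
    refine hA (h.jordan (E := {a, b}) (by have := h.h5; rw [Finset.card_pair hab]; omega) hj
      (γ := γ) (by simp [hγ]) fun ε hε => ?_)
    simp only [Finset.mem_insert, Finset.mem_singleton] at hε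
    rcases hε with e | e
    · exact hl ε e
    refine conn (P := fun ε => Orb (Sup G i {a, b}) γ ε) (· ≠ i) ?_
      ((orb_equiv _).trans (hl δ hδ) ⟨v, hv, rfl⟩) (fun t ht => by rw [not_not.1 ht, e, hb'])
    intro ε l q hl' hε
    obtain ⟨ρ, r1, r2⟩ := exists_even' h.h5 (ε l) q
    have := orb_inv (hn l hl' ρ r1) _ _ hε
    rw [co_apply l ρ ε, r2] at this
    exact (orb_equiv _).trans (hl _ (by rw [co_ne hl'.symm, hγ])) this

theorem Hyp.s2 {a b : Λ} (hab : a ≠ b) (hu : u ∈ Sup G i {a, b}) {j : ι} (hj : j ≠ i)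
    (γ : ι → Λ) : u γ j = γ j := by
  by_cases h1 : γ i = a
  · exact h.s2' hA hab hu hj γ h1
  by_cases h2 : γ i = b
  · exact h.s2' hA hab.symm (by rwa [Finset.pair_comm]) hj γ h2
  · rw [hu.2 γ (by simp [h1, h2])]

/-- An element preserving coordinate `j` commutes with the three-cycles in that coordinate. -/
theorem Hyp.const {j : ι} (hu : u ∈ G) (hj : ∀ γ, u γ j = γ j) {ρ : Perm Λ}
    (hρ : ρ.IsThreeCycle) : u * co j ρ = co j ρ * u := by
  have hj' : ∀ γ, u⁻¹ γ j = γ j := fun γ => by rw [← hj (u⁻¹ γ)]; simp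
  set v := u * co j ρ * u⁻¹ * (co j ρ)⁻¹ with hv
  have hg := h.even j ρ hρ.mem_alternatingGroup
  have hvG : v ∈ G := G.mul_mem (G.mul_mem (G.mul_mem hu hg) (G.inv_mem hu)) (G.inv_mem hg)
  have v1 : ∀ γ, v γ j = γ j := fun γ => by
    simp only [hv, Perm.mul_apply, hj, co_same, hj', co_inv_same]; simp
  have v1' : ∀ γ, v⁻¹ γ j = γ j := fun γ => by rw [← v1 (v⁻¹ γ)]; simp
  have v2 : ∀ γ : ι → Λ, ρ (γ j) = γ j → v γ = γ := fun γ hγ => by
    have a1 : (co j ρ)⁻¹ γ = γ := by rw [Perm.inv_eq_iff_eq, co_fix.2 hγ]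
    simp only [hv, Perm.mul_apply, a1]
    rw [co_fix.2 (by rwa [hj'])]; simp
  have v2' : ∀ γ : ι → Λ, ρ (γ j) = γ j → v⁻¹ γ = γ := fun γ hγ => by
    rw [Perm.inv_eq_iff_eq, v2 γ hγ]
  suffices v = 1 by
    rw [hv, mul_inv_eq_one, mul_inv_eq_iff_eq_mul] at this; exact this
  ext1 γ
  by_contra hne
  have hp : ρ (γ j) ≠ γ j := fun e => hne (v2 γ e)
  obtain ⟨d, hd⟩ := exists_new ρ.support (by rw [hρ.card_support]; have := h.h5; omega)
  obtain ⟨e, he⟩ := exists_new (insert d ρ.support) (by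
    rw [Finset.card_insert_of_notMem hd, hρ.card_support]; have := h.h5; omega)
  simp only [Finset.mem_insert, Perm.mem_support, not_or, not_not] at hd he
  have pd : γ j ≠ d := fun e => hp (by rw [e, hd])
  have pe : γ j ≠ e := fun e' => hp (by rw [e', he.2])
  have de : d ≠ e := fun e' => he.1 e'.symm
  have h3 := c3_three pd pe de
  set η := c3 (γ j) d e with hη
  have hk := h.even j η h3.mem_alternatingGroup
  have i1 : η⁻¹ (γ j) = e := by rw [Perm.inv_eq_iff_eq, hη, c3_c pe de]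
  have i2 : η⁻¹ e = d := by rw [Perm.inv_eq_iff_eq, hη, c3_b]
  have hz : v * co j η * v⁻¹ * (co j η)⁻¹ ∈ Sup G j {γ j, d} := by
    refine ⟨G.mul_mem (G.mul_mem (G.mul_mem hvG hk) (G.inv_mem hvG)) (G.inv_mem hk),
      fun ε hε => ?_⟩
    simp only [Finset.mem_insert, Finset.mem_singleton, not_or] at hε
    simp only [Perm.mul_apply]
    by_cases h1 : ε j = e
    · rw [v2' _ (by rw [co_inv_same, h1, i2, hd])]
      simpa using v2 ε (by rw [h1, he.2])
    · have a1 : (co j η)⁻¹ ε = ε := by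
        rw [Perm.inv_eq_iff_eq, co_fix.2 (c3_ne hε.1 hε.2 h1)]
      rw [a1, co_fix.2 (by rw [v1']; exact c3_ne hε.1 hε.2 h1)]; simp
  have : (v * co j η * v⁻¹ * (co j η)⁻¹) γ = γ := eq_of_res
    (res_eq_iff.2 fun l hl => h.s2 hA pd hz hl γ) (by
      simp only [Perm.mul_apply, v1, co_same, v1', co_inv_same]; simp)
  simp only [Perm.mul_apply] at this
  rw [v2' _ (by rw [co_inv_same, i1, he.2])] at this
  exact hne (by simpa using this)

/-- An element preserving all coordinates but one is a coordinate permutation. -/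
theorem Hyp.isCo (hu : u ∈ G) (hj : ∀ j, j ≠ i → ∀ γ, u γ j = γ j) : ∃ ρ, u = co i ρ := by
  have hne : Nonempty Λ := Fintype.card_pos_iff.1 (by have := h.h5; omega)
  have key : ∀ γ δ : ι → Λ, δ i = γ i → u δ i = u γ i := by
    intro γ δ hδ
    refine conn (P := fun δ => u δ i = u γ i) (· ≠ i) ?_ rfl
      (fun t ht => by rw [not_not.1 ht, hδ])
    intro ε l q hl hε
    by_cases e : ε l = q
    · rw [← e, update_eq_self, hε]
    obtain ⟨x, x1, x2, -⟩ := exists_ne4 h.h5 (ε l) q q q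
    obtain ⟨ρ, r1, r2, -⟩ := exists_c3 h.h5 e x1 x2 x1 x2
    rw [← r2, ← co_apply, ← Perm.mul_apply, h.const hA hu (hj l hl) r1, Perm.mul_apply,
      co_ne hl.symm, hε]
  have hinj : Injective fun p : Λ => u (fun _ => p) i := by
    intro p q hpq
    simp only at hpq
    have a1 := key (fun _ => q) (update (fun _ => p) i q) (by simp)
    have : u (fun _ => p) = u (update (fun _ => p) i q) := eq_of_res
      (res_eq_iff.2 fun l hl => by rw [hj l hl, hj l hl, update_of_ne hl]) (hpq.trans a1.symm)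
    simpa using congrFun (u.injective this) i
  refine ⟨Equiv.ofBijective _ (Finite.injective_iff_bijective.1 hinj), ?_⟩
  ext1 γ
  refine eq_of_res (res_eq_iff.2 fun l hl => by rw [hj l hl, co_ne hl]) ?_
  rw [co_same]
  exact key _ _ rfl

end Cfsg.Lib.PA
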